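import Mathlib
import Cfsg.Agent.H587.CubicA

/-!
# S4415, part B: four-groups permuted by `b` and their lines
-/

set_option autoImplicit false
set_option linter.unusedSectionVars false
set_option linter.unusedVariables false

namespace Cfsg.Agent.H587.Cubic

open Module
open scoped commutatorElement

section

variable {G : Type*} [Group G]

/-- Conjugation. -/
def cj (b x : G) : G := b * x * b⁻¹

theorem cj_mul (b x y : G) : cj b (x * y) = cj b x * cj b y := by unfold cj; group
theorem cj_one (b : G) : cj b 1 = 1 := by unfold cj; group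
theorem cj_inv (b x : G) : cj b x⁻¹ = (cj b x)⁻¹ := by unfold cj; group
theorem cj_inj {b x y : G} (h : cj b x = cj b y) : x = y := by
  unfold cj at h
  exact mul_left_cancel (mul_right_cancel h)
theorem cj_cj (b c x : G) : cj b (cj c x) = cj (b * c) x := by unfold cj; group
theorem cj_three {b : G} (hb : b * b * b = 1) (x : G) : cj b (cj b (cj b x)) = x := by
  rw [cj_cj, cj_cj, hb]; unfold cj; group
theorem mul_eq_cj (b x : G) : b * x = cj b x * b := by unfold cj; group
theorem cj_mem {R : Subgroup G} (hR : R.Normal) (b : G) {x : G} (hx : x ∈ R) : cj b x ∈ R :=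
  hR.conj_mem x hx b

/-- `t`, `t^b`, `t^(b²)` are the involutions of a four-group. -/
structure FG (b t : G) : Prop where
  ne : t ≠ 1
  sq : t * t = 1
  prod : t * cj b t * cj b (cj b t) = 1

variable {b t : G}

theorem FG.next (h : FG b t) (hb : b * b * b = 1) : FG b (cj b t) where
  ne := fun h0 => h.ne (cj_inj (h0.trans (cj_one b).symm))
  sq := by rw [← cj_mul, h.sq, cj_one]
  prod := by
    have h1 := congrArg (cj b) h.prod
    rw [cj_mul, cj_mul, cj_one] at h1
    exact h1

theorem FG.inv_eq (h : FG b t) : t⁻¹ = t := inv_eq_of_mul_eq_one_left h.sq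

theorem FG.mul_eq (h : FG b t) (hb : b * b * b = 1) : t * cj b t = cj b (cj b t) := by
  have h1 := h.prod
  have h2 := ((h.next hb).next hb).inv_eq
  rw [mul_eq_one_iff_eq_inv, h2] at h1
  exact h1

theorem FG.comm12 (h : FG b t) (hb : b * b * b = 1) : t * cj b t = cj b t * t := by
  have h1 := h.mul_eq hb
  have h2 := ((h.next hb).next hb).sq
  have h3 := (h.next hb).sq
  rw [← h1] at h2
  calc t * cj b t = t * cj b t * (t * cj b t * (t * cj b t)) := by rw [h2, mul_one]
    _ = (t * cj b t * (t * cj b t)) * (t * cj b t) := by group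
    _ = t * cj b t := by rw [h2, one_mul]
    _ = (cj b t * t)⁻¹ * ((cj b t * t) * (t * cj b t)) := by group
    _ = (cj b t * t)⁻¹ * 1 := by
        congr 1
        calc cj b t * t * (t * cj b t) = cj b t * (t * t) * cj b t := by group
          _ = 1 := by rw [h.sq, mul_one, h3]
    _ = t⁻¹ * (cj b t)⁻¹ := by group
    _ = cj b t * t := by
        have h4 : (cj b t * t) * (t⁻¹ * (cj b t)⁻¹)= 1 := by group
        have h5 : t⁻¹ * (cj b t)⁻¹ = t * cj b t := by rw [h.inv_eq, (h.next hb).inv_eq]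
        rw [h5]
        calc t * cj b t = (cj b t * t) * (cj b t * t)⁻¹ * (t * cj b t) := by group
          _ = (cj b t * t) * (t⁻¹ * (cj b t)⁻¹ * (t * cj b t)) := by group
          _ = (cj b t * t) * 1 := by rw [h5, h2]
          _ = cj b t * t := mul_one _

theorem FG.ne12 (h : FG b t) (hb : b * b * b = 1) : cj b t ≠ t := by
  intro h0
  have h1 := h.prod
  rw [h0, h0, h.sq, one_mul] at h1
  exact h.ne h1

theorem FG.mul23 (h : FG b t) (hb : b * b * b = 1) : cj b t * cj b (cj b t) = t := by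
  have h1 := (h.next hb).mul_eq hb
  rw [cj_three hb] at h1
  exact h1

theorem FG.mul31 (h : FG b t) (hb : b * b * b = 1) : cj b (cj b t) * t = cj b t := by
  have h1 := ((h.next hb).next hb).mul_eq hb
  rw [cj_three hb] at h1
  exact h1

end

section

variable {G : Type*} [Group G] {E : Type*} [AddCommGroup E] [Module (ZMod 3) E]

/-- The common eigenspace: `s = 1`, `u = -1`. -/
def ln (ρ : Representation (ZMod 3) G E) (s u : G) : Submodule (ZMod 3) E where
  carrier := {v | ρ s v = v ∧ ρ u v = -v}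
  zero_mem' := by constructor <;> simp
  add_mem' := by
    rintro a c ⟨h1, h2⟩ ⟨h3, h4⟩
    constructor
    · rw [map_add, h1, h3]
    · rw [map_add, h2, h4]; abel
  smul_mem' := by
    rintro a c ⟨h1, h2⟩
    constructor
    · rw [map_smul, h1]
    · rw [map_smul, h2, smul_neg]

theorem mem_ln {ρ : Representation (ZMod 3) G E} {s u : G} {v : E} :
    v ∈ ln ρ s u ↔ ρ s v = v ∧ ρ u v = -v := Iff.rfl

theorem ln_cj {ρ : Representation (ZMod 3) G E} {s u : G} (g : G) {v : E} (hv : v ∈ ln ρ s u) :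
    ρ g v ∈ ln ρ (cj g s) (cj g u) := by
  obtain ⟨h1, h2⟩ := hv
  constructor
  · rw [← rho_mul]
    have : cj g s * g = g * s := by unfold cj; group
    rw [this, rho_mul, h1]
  · rw [← rho_mul]
    have : cj g u * g = g * u := by unfold cj; group
    rw [this, rho_mul, h2, map_neg]

/-- The line of a four-group: `t = 1`, `t^b = -1`. -/
abbrev l1 (ρ : Representation (ZMod 3) G E) (b t : G) : Submodule (ZMod 3) E := ln ρ t (cj b t)

variable {ρ : Representation (ZMod 3) G E} {R : Subgroup G} {b t : G}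

/-- All values on the first line. -/
theorem FG.vals (h : FG b t) (hb : b * b * b = 1) {v : E} (hv : v ∈ l1 ρ b t) :
    ρ t v = v ∧ ρ (cj b t) v = -v ∧ ρ (cj b (cj b t)) v = -v := by
  obtain ⟨h1, h2⟩ := hv
  refine ⟨h1, h2, ?_⟩
  rw [← h.mul_eq hb, rho_mul, h2, map_neg, h1]

/-- Values on the second line. -/
theorem FG.vals2 (h : FG b t) (hb : b * b * b = 1) {v : E} (hv : v ∈ l1 ρ b t) :
    ρ t (ρ b v) = -(ρ b v) ∧ ρ (cj b t) (ρ b v) = ρ b v ∧ ρ (cj b (cj b t)) (ρ b v) = -(ρ b v) := by
  have h1 := (h.next hb).vals hb (v := ρ b v) (ln_cj b hv)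
  rw [cj_three hb] at h1
  exact ⟨h1.2.2, h1.1, h1.2.1⟩

/-- Values on the third line. -/
theorem FG.vals3 (h : FG b t) (hb : b * b * b = 1) {v : E} (hv : v ∈ l1 ρ b t) :
    ρ t (ρ b (ρ b v)) = -(ρ b (ρ b v)) ∧ ρ (cj b t) (ρ b (ρ b v)) = -(ρ b (ρ b v)) ∧
      ρ (cj b (cj b t)) (ρ b (ρ b v)) = ρ b (ρ b v) := by
  have h1 := (h.next hb).vals2 hb (v := ρ b v) (ln_cj b hv)
  rw [cj_three hb] at h1
  exact ⟨h1.2.2, h1.1, h1.2.1⟩

theorem eq_zero_of_neg {v : E} (h : v = -v) : v = 0 := by
  apply two_smul_inj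
  nth_rewrite 1 [h]
  abel

/-- The three lines are independent. -/
theorem FG.indep (h : FG b t) (hb : b * b * b = 1) {u v w : E} (hu : u ∈ l1 ρ b t) (hv : v ∈ l1 ρ b t)
    (hw : w ∈ l1 ρ b t) (h0 : u + ρ b v + ρ b (ρ b w) = 0) : u = 0 ∧ v = 0 ∧ w = 0 := by
  have e1 := congrArg (ρ t) h0
  rw [map_add, map_add, map_zero, (h.vals hb hu).1, (h.vals2 hb hv).1, (h.vals3 hb hw).1] at e1
  have e2 := congrArg (ρ (cj b t)) h0
  rw [map_add, map_add, map_zero, (h.vals hb hu).2.1, (h.vals2 hb hv).2.1, (h.vals3 hb hw).2.1] at e2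
  have hu0 : u = 0 := by
    apply two_smul_inj
    calc u + u = (u + ρ b v + ρ b (ρ b w)) + (u + -(ρ b v) + -(ρ b (ρ b w))) := by abel
      _ = 0 := by rw [h0, e1, add_zero]
  have hv0 : ρ b v = 0 := by
    apply two_smul_inj
    calc ρ b v + ρ b v = (u + ρ b v + ρ b (ρ b w)) + (-u + (ρ b v) + -(ρ b (ρ b w))) := by abel
      _ = 0 := by rw [h0, e2, add_zero]
  have hw0 : ρ b (ρ b w) = 0 := by
    rw [hu0, hv0, zero_add, zero_add] at h0
    exact h0
  have hinj : ∀ x : E, ρ b x = 0 → x = 0 := by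
    intro x hx
    have := ρ.inv_self_apply b x
    rw [hx, map_zero] at this
    exact this.symm
  exact ⟨hu0, hinj v hv0, hinj w (hinj _ hw0)⟩

variable [Finite E]

/-- The first line is not zero, if `ρ` is faithful. -/
theorem FG.exists_ne (h : FG b t) (hb : b * b * b = 1) (hf : ∀ g : G, (∀ v, ρ g v = v) → g = 1) :
    ∃ e ∈ l1 ρ b t, e ≠ 0 := by
  by_contra hcon
  push Not at hcon
  -- then every `-1`-eigenspace is trivial
  apply h.ne
  apply hf
  intro v
  have key : ∀ (s : G), FG b s → (∀ x ∈ l1 ρ b s, x = 0) → ∀ w, ρ (cj b (cj b s)) w = -w → ρ s w = -w := by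
    intro s hs hl w hw
    have h1 : w + ρ s w ∈ l1 ρ b s := by
      constructor
      · rw [map_add, ← rho_mul, hs.sq, rho_one, add_comm]
      · have h2 : ρ (cj b s) w = -(ρ s w) := by
          have h3 : cj b s = s * cj b (cj b s) := by
            rw [← hs.mul_eq hb, ← mul_assoc, hs.sq, one_mul]
          calc ρ (cj b s) w = ρ (s * cj b (cj b s)) w := by rw [← h3]
            _ = -(ρ s w) := by rw [rho_mul, hw, map_neg]
        have h4 : ρ (cj b s) (ρ s w) = -w := by
          rw [← rho_mul, ← hs.comm12 hb, hs.mul_eq hb, hw]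
        rw [map_add, h2, h4]; abel
    have h2 := hl _ h1
    exact (neg_eq_of_add_eq_zero_right h2).symm
  have hnext : ∀ s : G, (∀ x ∈ l1 ρ b s, x = 0) → ∀ x ∈ l1 ρ b (cj b s), x = 0 := by
    intro s hs x hx
    have h1 := ln_cj (ρ := ρ) (b * b) hx
    have h2 : ∀ y, cj (b * b) (cj b y) = y := by
      intro y
      rw [cj_cj, hb]; unfold cj; group
    rw [h2, h2] at h1
    have h3 := hs _ h1
    rw [rho_mul] at h3
    have hinj : ∀ x : E, ρ b x = 0 → x = 0 := by
      intro x hx
      have := ρ.inv_self_apply b x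
      rw [hx, map_zero] at this
      exact this.symm
    exact hinj _ (hinj _ h3)
  -- let `w` be a `-1`-eigenvector of `t`
  have h1 : ∀ w, ρ t w = -w → w = 0 := by
    intro w hw
    -- `t = cj b (cj b (cj b t))`
    have a1 := key (cj b t) (h.next hb) (hnext t hcon) w (by rw [cj_three hb]; exact hw)
    have a2 := key (cj b (cj b t)) ((h.next hb).next hb) (hnext _ (hnext t hcon)) w
      (by rw [cj_three hb]; exact a1)
    have a3 := h.mul23 hb
    rw [← a3, rho_mul, a2, map_neg, a1, neg_neg] at hw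
    exact eq_zero_of_neg hw
  have h2 := h1 (v - ρ t v) (by
    rw [map_sub, ← rho_mul, h.sq, rho_one]; abel)
  exact (sub_eq_zero.mp h2).symm

end

end Cfsg.Agent.H587.Cubic
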