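import Mathlib
import Cfsg.Agent.H587.CubicB

/-!
# S4415, part C: lines are one-dimensional; central elements of `R`
-/

set_option autoImplicit false
set_option linter.unusedSectionVars false
set_option linter.unusedVariables false

namespace Cfsg.Agent.H587.Cubic

open Module
open scoped commutatorElement

variable {G : Type*} [Group G] {E : Type*} [AddCommGroup E] [Module (ZMod 3) E] [Finite E]
variable {ρ : Representation (ZMod 3) G E} {R : Subgroup G} {b t : G}

theorem zmod3_cases (k : ZMod 3) : k = 0 ∨ k = 1 ∨ k = -1 := by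
  revert k; decide

theorem CS.exists_line (h : CS ρ R b) (hq : FG b t) : ∃ e ∈ l1 ρ b t, e ≠ 0 :=
  hq.exists_ne h.b3 h.faith

theorem CS.line (h : CS ρ R b) (hq : FG b t) {e : E} (he : e ∈ l1 ρ b t) (he0 : e ≠ 0) {v : E}
    (hv : v ∈ l1 ρ b t) : ∃ c : ZMod 3, v = c • e := by
  have hfd : FiniteDimensional (ZMod 3) E := Module.Finite.of_finite
  have h1 := h.three (l1 ρ b t) (fun u hu v hv w hw h0 => hq.indep h.b3 hu hv hw h0)
  have h2 : finrank (ZMod 3) (l1 ρ b t) = 1 := by
    apply le_antisymm h1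
    have hnt : Nontrivial (l1 ρ b t) := ⟨⟨⟨e, he⟩, 0, fun h => he0 (congrArg Subtype.val h)⟩⟩
    exact Module.finrank_pos
  obtain ⟨c, hc⟩ := (finrank_eq_one_iff_of_nonzero' (⟨e, he⟩ : l1 ρ b t)
    (fun h => he0 (congrArg Subtype.val h))).mp h2 ⟨v, hv⟩
  exact ⟨c, (congrArg Subtype.val hc).symm⟩

theorem CS.dd_line (h : CS ρ R b) (hq : FG b t) {e : E} (he : e ∈ l1 ρ b t) (he0 : e ≠ 0) :
    ∀ v ∈ dd ρ b, ∃ c d f : ZMod 3, v = c • e + d • ρ b e + f • ρ b (ρ b e) := by
  have hfd : FiniteDimensional (ZMod 3) E := Module.Finite.of_finite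
  apply h.dd_le
  intro c d f h0
  have h1 : c • e + ρ b (d • e) + ρ b (ρ b (f • e)) = 0 := by
    rw [map_smul, map_smul, map_smul]; exact h0
  obtain ⟨h2, h3, h4⟩ := hq.indep h.b3 (Submodule.smul_mem _ c he) (Submodule.smul_mem _ d he)
    (Submodule.smul_mem _ f he) h1
  exact ⟨(smul_eq_zero.mp h2).resolve_right he0, (smul_eq_zero.mp h3).resolve_right he0,
    (smul_eq_zero.mp h4).resolve_right he0⟩

/-- A normal subgroup of `R` acting trivially on the line is trivial. -/
theorem CS.triv_of_line [Finite G] (h : CS ρ R b) (hq : FG b t) {e : E} (he : e ∈ l1 ρ b t)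
    (he0 : e ≠ 0) (M : Subgroup G) (hM : M.Normal) (hMR : M ≤ R) (hMe : ∀ m ∈ M, ρ m e = e) :
    M = ⊥ := by
  classical
  have := Fintype.ofFinite M
  have hcard : (Nat.card M : ZMod 3) ≠ 0 := by
    intro h0
    rw [ZMod.natCast_eq_zero_iff] at h0
    exact h.r3 (h0.trans (Subgroup.card_dvd_of_le hMR))
  -- `M` acts trivially on the commutator space
  have hMb : ∀ (v : E), (∀ m ∈ M, ρ m v = v) → ∀ m ∈ M, ρ m (ρ b v) = ρ b v := by
    intro v hv m hm
    have h1 : m * b = b * (b⁻¹ * m * b) := by group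
    have h2 : b⁻¹ * m * b ∈ M := by
      have := hM.conj_mem m hm b⁻¹
      rwa [inv_inv] at this
    rw [← rho_mul, h1, rho_mul, hv _ h2]
  have hMdd : ∀ v ∈ dd ρ b, ∀ m ∈ M, ρ m v = v := by
    intro v hv m hm
    obtain ⟨c, d, f, rfl⟩ := h.dd_line hq he he0 v hv
    rw [map_add, map_add, map_smul, map_smul, map_smul, hMe m hm, hMb _ hMe m hm,
      hMb _ (hMb _ hMe) m hm]
  have hsumfix : ∀ v : E, (∀ m ∈ M, ρ m v = v) → ∑ m : M, ρ (m : G) v = (Nat.card M : ZMod 3) • v := by
    intro v hv
    rw [Finset.sum_congr rfl (fun m _ => hv m.1 m.2), Finset.sum_const, Finset.card_univ,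
      Nat.card_eq_fintype_card, Nat.cast_smul_eq_nsmul]
  let W : Submodule (ZMod 3) E :=
    { carrier := {w | ∑ m : M, ρ (m : G) w = 0}
      zero_mem' := by
        show ∑ m : M, ρ (m : G) (0 : E) = 0
        simp
      add_mem' := by
        intro a c ha hc
        show ∑ m : M, ρ (m : G) (a + c) = 0
        have ha' : ∑ m : M, ρ (m : G) a = 0 := ha
        have hc' : ∑ m : M, ρ (m : G) c = 0 := hc
        simp only [map_add]
        rw [Finset.sum_add_distrib, ha', hc', add_zero]
      smul_mem' := by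
        intro k a ha
        show ∑ m : M, ρ (m : G) (k • a) = 0
        have ha' : ∑ m : M, ρ (m : G) a = 0 := ha
        simp only [map_smul]
        rw [← Finset.smul_sum, ha', smul_zero] }
  have hW : ∀ w, w ∈ W ↔ ∑ m : M, ρ (m : G) w = 0 := fun w => Iff.rfl
  have hWinv : ∀ g : G, ∀ w ∈ W, ρ g w ∈ W := by
    intro g w hw
    rw [hW] at hw ⊢
    have h1 : ∑ m : M, ρ (m : G) (ρ g w) = ρ g (∑ m : M, ρ (m : G) w) := by
      rw [map_sum]
      symm
      apply Fintype.sum_equiv (MulAut.conjNormal (H := M) g).toEquiv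
      intro m
      rw [← rho_mul, ← rho_mul]
      congr 2
      show g * (m : G) = ((MulAut.conjNormal g m : M) : G) * g
      rw [MulAut.conjNormal_apply]; group
    rw [h1, hw, map_zero]
  have hbW : ∀ w ∈ W, ρ b w = w := by
    intro w hw
    have h1 := hMdd _ (sub_mem_dd ρ b w)
    have h2 := hsumfix _ h1
    have h3 : ρ b w - w ∈ W := W.sub_mem (hWinv b w hw) hw
    rw [hW, h2] at h3
    exact sub_eq_zero.mp ((smul_eq_zero.mp h3).resolve_left hcard)
  have htriv := h.trivial_on W hWinv hbW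
  have hW0 : ∀ w ∈ W, w = 0 := by
    intro w hw
    have h1 := hsumfix w (fun m _ => htriv m w hw)
    rw [(hW w).mp hw] at h1
    exact (smul_eq_zero.mp h1.symm).resolve_left hcard
  rw [Subgroup.eq_bot_iff_forall]
  intro m hm
  apply h.faith
  intro v
  have hS : ∀ m' ∈ M, ρ m' (∑ m : M, ρ (m : G) v) = ∑ m : M, ρ (m : G) v := by
    intro m' hm'
    rw [map_sum]
    apply Fintype.sum_equiv (Equiv.mulLeft (⟨m', hm'⟩ : M))
    intro m
    rw [← rho_mul]
    rfl
  have h1 : (Nat.card M : ZMod 3) • v - ∑ m : M, ρ (m : G) v ∈ W := by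
    rw [hW]
    simp only [map_sub, map_smul]
    rw [Finset.sum_sub_distrib, ← Finset.smul_sum, hsumfix _ hS, sub_self]
  have h2 := sub_eq_zero.mp (hW0 _ h1)
  have h3 : (Nat.card M : ZMod 3) • ρ m v = (Nat.card M : ZMod 3) • v := by
    rw [← map_smul, h2]
    exact hS m hm
  have h4 : (Nat.card M : ZMod 3) • (ρ m v - v) = 0 := by rw [smul_sub, h3, sub_self]
  exact sub_eq_zero.mp ((smul_eq_zero.mp h4).resolve_left hcard)

/-- An element commuting with the four-group acts as `±1` on the line. -/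
theorem CS.scalar (h : CS ρ R b) (hq : FG b t) {e : E} (he : e ∈ l1 ρ b t) (he0 : e ≠ 0) {c : G}
    (h1 : c * t = t * c) (h2 : c * cj b t = cj b t * c) : ρ c e = e ∨ ρ c e = -e := by
  have h3 : ρ c e ∈ l1 ρ b t := by
    constructor
    · rw [← rho_mul, ← h1, rho_mul, he.1]
    · rw [← rho_mul, ← h2, rho_mul, he.2, map_neg]
  obtain ⟨k, hk⟩ := h.line hq he he0 h3
  rcases zmod3_cases k with rfl | rfl | rfl
  · exfalso
    rw [zero_smul] at hk
    have := ρ.inv_self_apply c e
    rw [hk, map_zero] at this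
    exact he0 this.symm
  · left; rw [hk, one_smul]
  · right; rw [hk, neg_smul, one_smul]

theorem zpowers_normal {c : G} (hc : ∀ g, g * c = c * g) : (Subgroup.zpowers c).Normal := by
  constructor
  intro n hn g
  obtain ⟨k, rfl⟩ := Subgroup.mem_zpowers_iff.mp hn
  have h1 : Commute g (c ^ k) := (show Commute g c from hc g).zpow_right k
  rw [h1.eq, mul_inv_cancel_right]
  exact Subgroup.mem_zpowers_iff.mpr ⟨k, rfl⟩

/-- A central element of `R` fixing a vector of the line is trivial. -/
theorem CS.central_one [Finite G] (h : CS ρ R b) (hq : FG b t) {e : E} (he : e ∈ l1 ρ b t)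
    (he0 : e ≠ 0) {c : G} (hcR : c ∈ R) (hc : ∀ g, g * c = c * g) (hce : ρ c e = e) : c = 1 := by
  have h1 := h.triv_of_line hq he he0 (Subgroup.zpowers c) (zpowers_normal hc)
    (by rw [Subgroup.zpowers_le]; exact hcR) (by
      intro m hm
      let K : Subgroup G :=
        { carrier := {g | ρ g e = e}
          one_mem' := rho_one ρ e
          mul_mem' := by
            intro a d ha hd
            show ρ (a * d) e = e
            have ha' : ρ a e = e := ha
            have hd' : ρ d e = e := hd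
            rw [rho_mul, hd', ha']
          inv_mem' := by
            intro a ha
            have ha' : ρ a e = e := ha
            show ρ a⁻¹ e = e
            have := ρ.inv_self_apply a e
            rwa [ha'] at this }
      have h2 : Subgroup.zpowers c ≤ K := by rw [Subgroup.zpowers_le]; exact hce
      exact h2 hm)
  rwa [Subgroup.zpowers_eq_bot] at h1

theorem CS.central_sq [Finite G] (h : CS ρ R b) (hq : FG b t) {c : G} (hcR : c ∈ R)
    (hc : ∀ g, g * c = c * g) : c * c = 1 := by
  obtain ⟨e, he, he0⟩ := h.exists_line hq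
  apply h.central_one hq he he0 (R.mul_mem hcR hcR)
  · intro g
    rw [← mul_assoc, hc g, mul_assoc, hc g, ← mul_assoc]
  · rcases h.scalar hq he he0 (hc t).symm (hc _).symm with h1 | h1
    · rw [rho_mul, h1, h1]
    · rw [rho_mul, h1, map_neg, h1, neg_neg]

/-- `R` contains at most one nontrivial element central in `G`. -/
theorem CS.central_eq [Finite G] (h : CS ρ R b) (hq : FG b t) {c d : G} (hcR : c ∈ R)
    (hc : ∀ g, g * c = c * g) (hc1 : c ≠ 1) (hdR : d ∈ R) (hd : ∀ g, g * d = d * g) (hd1 : d ≠ 1) :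
    c = d := by
  obtain ⟨e, he, he0⟩ := h.exists_line hq
  have key : ∀ x ∈ R, (∀ g, g * x = x * g) → x ≠ 1 → ρ x e = -e := by
    intro x hxR hx hx1
    rcases h.scalar hq he he0 (hx t).symm (hx _).symm with h1 | h1
    · exact absurd (h.central_one hq he he0 hxR hx h1) hx1
    · exact h1
  have h1 : c * d = 1 := by
    apply h.central_one hq he he0 (R.mul_mem hcR hdR)
    · intro g
      rw [← mul_assoc, hc g, mul_assoc, hd g, ← mul_assoc]
    · rw [rho_mul, key d hdR hd hd1, map_neg, key c hcR hc hc1, neg_neg]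
  have h2 := h.central_sq hq hdR hd
  exact mul_right_cancel (h1.trans h2.symm)

end Cfsg.Agent.H587.Cubic
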