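import Mathlib
import Cfsg.Agent.H587.CubicF
import Cfsg.Agent.Lib.PGroupCoprimeAction

/-!
# S4415, part G: in the extraspecial case `R` is a 2-group
-/

set_option autoImplicit false
set_option linter.unusedSectionVars false
set_option linter.unusedVariables false

namespace Cfsg.Agent.H587.Cubic

open Module
open scoped commutatorElement

theorem fp_mod {α : Type*} [Finite α] (p : ℕ) [Fact p.Prime] (f : α → α) (hf : ∀ x, f^[p] x = x) :
    Nat.card α ≡ Nat.card {x // f x = x} [MOD p] := by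
  classical
  have := Fintype.ofFinite α
  let F : Function.End α := f
  have h1 : F ^ p ^ 1 = 1 := by
    rw [pow_one]
    have key : ∀ n : ℕ, ∀ x, (F ^ n : Function.End α) x = f^[n] x := by
      intro n
      induction n with
      | zero => intro x; rfl
      | succ n ih =>
        intro x
        rw [pow_succ']
        show f ((F ^ n : Function.End α) x) = _
        rw [ih, Function.iterate_succ_apply']
    funext x
    rw [key, hf]
    rfl
  have h2 := Equiv.Perm.card_fixedPoints_modEq h1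
  rw [Nat.card_eq_fintype_card, Nat.card_eq_fintype_card]
  have h3 : Fintype.card (Function.fixedPoints F) = Fintype.card {x // f x = x} :=
    Fintype.card_congr (Equiv.refl _)
  rw [← h3]
  exact h2

theorem sq_add_one_ne : ∀ c : ZMod 3, c * c + 1 ≠ 0 := by decide

variable {G : Type*} [Group G] {E : Type*} [AddCommGroup E] [Module (ZMod 3) E] [Finite E]
variable {ρ : Representation (ZMod 3) G E} {R : Subgroup G} {b t : G}

theorem cj_iter (v x : G) (n : ℕ) : (cj v)^[n] x = v ^ n * x * (v ^ n)⁻¹ := by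
  induction n with
  | zero => simp
  | succ n ih =>
    rw [Function.iterate_succ_apply', ih]
    unfold cj
    rw [pow_succ']; group

/-- The centralizer of `v` in `N`. -/
def cn (N : Subgroup G) (v : G) : Subgroup G where
  carrier := {x | x ∈ N ∧ cj v x = x}
  one_mem' := ⟨N.one_mem, cj_one v⟩
  mul_mem' := by
    rintro a c ⟨h1, h2⟩ ⟨h3, h4⟩
    exact ⟨N.mul_mem h1 h3, by rw [cj_mul, h2, h4]⟩
  inv_mem' := by
    rintro a ⟨h1, h2⟩
    exact ⟨N.inv_mem h1, by rw [cj_inv, h2]⟩

theorem cn_mod [Finite G] (p : ℕ) [Fact p.Prime] (N : Subgroup G) (v : G) (hv : v ^ p = 1)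
    (hN : ∀ x ∈ N, cj v x ∈ N) : Nat.card N ≡ Nat.card (cn N v) [MOD p] := by
  let f : N → N := fun x => ⟨cj v x, hN x x.2⟩
  have hf : ∀ (n : ℕ) (x : N), ((f^[n] x : N) : G) = (cj v)^[n] x := by
    intro n
    induction n with
    | zero => intro x; rfl
    | succ n ih =>
      intro x
      rw [Function.iterate_succ_apply', Function.iterate_succ_apply', ← ih]
  have h1 := fp_mod p f (by
    intro x
    apply Subtype.ext
    rw [hf, cj_iter, hv]
    simp)
  have e : Nat.card {x // f x = x} = Nat.card (cn N v) := by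
    apply Nat.card_congr
    exact
      { toFun := fun x => ⟨x.1, x.1.2, congrArg Subtype.val x.2⟩
        invFun := fun x => ⟨⟨x.1, x.2.1⟩, Subtype.ext x.2.2⟩
        left_inv := fun x => rfl
        right_inv := fun x => rfl }
  rwa [e] at h1

theorem cn_le (N : Subgroup G) (v : G) : cn N v ≤ N := fun x hx => hx.1

/-- The order of `R`. -/
theorem EX.card_dvd [Finite G] (h : CS ρ R b) (hq : FG b t) {N : Subgroup G} {z : G}
    (hN : EX b R N z) : Nat.card R ∣ 2 ^ 9 * 65 := by
  have hd := hN.dim_eq h hq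
  have hzR := hN.le hN.mem
  let f : G →* Module.End (ZMod 3) (ngs ρ z) :=
    { toFun := fun g => (ρ g).restrict (fun v hv => ngs_inv hN.cen g hv)
      map_one' := by
        ext v
        exact rho_one ρ v
      map_mul' := by
        intro g k
        ext v
        exact rho_mul ρ g k v }
  have hf : Function.Injective f.toHomUnits := by
    rw [injective_iff_map_eq_one]
    intro g hg
    apply h.ngs_faith hq hzR hN.cen hN.ne
    intro v hv
    have h1 : f g = 1 := congrArg Units.val hg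
    have h2 := LinearMap.congr_fun h1 ⟨v, hv⟩
    exact congrArg Subtype.val h2
  have h1 := Subgroup.card_dvd_of_injective _ hf
  rw [card_end_units, hd] at h1
  have h2 : ∏ i : Fin 4, (3 ^ 4 - 3 ^ (i : ℕ)) = 3 ^ 6 * (2 ^ 9 * 65) := by
    rw [Fin.prod_univ_four]; norm_num
  rw [h2] at h1
  have h3 : Nat.card R ∣ 3 ^ 6 * (2 ^ 9 * 65) := (Subgroup.card_subgroup_dvd_card R).trans h1
  apply Nat.Coprime.dvd_of_dvd_mul_left _ h3
  rw [Nat.coprime_comm]
  apply Nat.Coprime.pow_left
  rw [Nat.Prime.coprime_iff_not_dvd Nat.prime_three]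
  exact h.r3

theorem EX.card_N [Finite G] (h : CS ρ R b) (hq : FG b t) {N : Subgroup G} {z : G}
    (hN : EX b R N z) : ∃ a ≤ 9, Nat.card N = 2 ^ a := by
  have hp : IsPGroup 2 N := by
    intro x
    refine ⟨2, ?_⟩
    apply Subtype.ext
    have h1 : (x : G) ^ (2 ^ 2) = (x * x) * (x * x) := by
      have : (2 : ℕ) ^ 2 = 4 := rfl
      rw [this, pow_succ, pow_succ, pow_succ, pow_one]; group
    have h2 : (x : G) ^ (2 ^ 2) = 1 := by
      rw [h1]
      rcases hN.sqs x x.2 with h3 | h3
      · rw [h3, one_mul]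
      · rw [h3, hN.sq]
    exact_mod_cast h2
  have : Fact (Nat.Prime 2) := ⟨Nat.prime_two⟩
  obtain ⟨a, ha⟩ := IsPGroup.iff_card.mp hp
  refine ⟨a, ?_, ha⟩
  have h1 : Nat.card N ∣ 2 ^ 9 * 65 := (Subgroup.card_dvd_of_le hN.le).trans (hN.card_dvd h hq)
  rw [ha] at h1
  have h2 : 2 ^ a ∣ 2 ^ 9 := by
    apply Nat.Coprime.dvd_of_dvd_mul_right _ h1
    apply Nat.Coprime.pow_left
    decide
  exact (Nat.pow_dvd_pow_iff_le_right (by norm_num)).mp h2

/-- No elements of order thirteen. -/
theorem EX.no_thirteen [Finite G] (h : CS ρ R b) (hq : FG b t) {N : Subgroup G} {z : G}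
    (hN : EX b R N z) {v : G} (hv : v ^ 13 = 1) : v = 1 := by
  have : Fact (Nat.Prime 13) := ⟨by norm_num⟩
  have hzR := hN.le hN.mem
  have hd := hN.dim_eq h hq
  obtain ⟨a, ha, hcard⟩ := hN.card_N h hq
  -- `v` centralizes `N`
  have hcn : cn N v = N := by
    have h1 := cn_mod 13 N v hv (fun x hx => hN.nor.conj_mem x hx v)
    have h2 := Subgroup.card_dvd_of_le (cn_le N v)
    rw [hcard] at h1 h2
    obtain ⟨c, hc, hcc⟩ := (Nat.dvd_prime_pow Nat.prime_two).mp h2
    rw [hcc] at h1
    have h3 : c = a := by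
      interval_cases a <;> interval_cases c <;> first | rfl | (exfalso; revert h1; decide)
    apply Subgroup.eq_of_le_of_card_ge (cn_le N v)
    rw [hcc, hcard, h3]
  have hcomm : ∀ x ∈ N, v * x = x * v := by
    intro x hx
    rw [← hcn] at hx
    rw [mul_eq_cj, hx.2]
  -- fixed points on the space
  let F : Submodule (ZMod 3) E := fxs ρ v ⊓ ngs ρ z
  have hFV : F ≤ ngs ρ z := inf_le_right
  have hcardV : Nat.card (ngs ρ z) = 81 := by
    have hfin : Module.Finite (ZMod 3) E := Module.Finite.of_finite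
    rw [Module.natCard_eq_pow_finrank (K := ZMod 3), hd, Nat.card_zmod]
    rfl
  have hcardF : Nat.card F = 3 ^ finrank (ZMod 3) F := by
    have hfin : Module.Finite (ZMod 3) E := Module.Finite.of_finite
    rw [Module.natCard_eq_pow_finrank (K := ZMod 3), Nat.card_zmod]
  have hmod : Nat.card (ngs ρ z) ≡ Nat.card F [MOD 13] := by
    let f : ngs ρ z → ngs ρ z := fun x => ⟨ρ v x, ngs_inv hN.cen v x.2⟩
    have hf : ∀ (n : ℕ) (x : ngs ρ z), ((f^[n] x : ngs ρ z) : E) = ρ (v ^ n) x := by
      intro n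
      induction n with
      | zero => intro x; rw [pow_zero, rho_one]; rfl
      | succ n ih =>
        intro x
        rw [Function.iterate_succ_apply', pow_succ', rho_mul, ← ih]
    have h1 := fp_mod 13 f (by
      intro x
      apply Subtype.ext
      rw [hf, hv, rho_one])
    have e : Nat.card {x // f x = x} = Nat.card F := by
      apply Nat.card_congr
      exact
        { toFun := fun x => ⟨x.1, congrArg Subtype.val x.2, x.1.2⟩
          invFun := fun x => ⟨⟨x.1, x.2.2⟩, Subtype.ext x.2.1⟩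
          left_inv := fun x => rfl
          right_inv := fun x => rfl }
    rwa [e] at h1
  have hle : finrank (ZMod 3) F ≤ 4 := by
    have hfin : Module.Finite (ZMod 3) E := Module.Finite.of_finite
    rw [← hd]
    exact Submodule.finrank_mono hFV
  rw [hcardV, hcardF] at hmod
  have hcases : finrank (ZMod 3) F = 1 ∨ finrank (ZMod 3) F = 4 := by
    generalize finrank (ZMod 3) F = k at *
    interval_cases k <;> first | (left; rfl) | (right; rfl) | (exfalso; revert hmod; decide)
  rcases hcases with h1 | h4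
  · exfalso
    obtain ⟨f, hf0, hf⟩ := finrank_eq_one_iff'.mp h1
    obtain ⟨y, hy, hy2⟩ := hN.exists_four
    have hyf : ρ y f ∈ F := by
      refine ⟨?_, ngs_inv hN.cen y f.2.2⟩
      show ρ v (ρ y f) = ρ y f
      rw [← rho_mul, hcomm y hy, rho_mul]
      rw [show ρ v (f : E) = f from f.2.1]
    obtain ⟨c, hc⟩ := hf ⟨ρ y f, hyf⟩
    have hc' : c • (f : E) = ρ y f := congrArg Subtype.val hc
    have h5 : ρ z (f : E) = (c * c) • (f : E) := by
      rw [← hy2, rho_mul, ← hc', map_smul, ← hc', smul_smul]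
    have h6 : ρ z (f : E) = -f := f.2.2
    rw [h6] at h5
    have hf0' : (f : E) ≠ 0 := fun h0 => hf0 (Subtype.ext h0)
    have h7 : (c * c + 1) • (f : E) = 0 := by
      rw [add_smul, ← h5, one_smul, neg_add_cancel]
    rcases smul_eq_zero.mp h7 with h8 | h8
    · exact sq_add_one_ne c h8
    · exact hf0' h8
  · apply h.ngs_faith hq hzR hN.cen hN.ne
    have hfin : Module.Finite (ZMod 3) E := Module.Finite.of_finite
    have h5 : F = ngs ρ z := Submodule.eq_of_le_of_finrank_eq hFV (by rw [h4, hd])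
    intro w hw
    rw [← h5] at hw
    exact hw.1

/-- `R` is a 2-group. -/
theorem EX.two_group [Finite G] (h : CS ρ R b) (hq : FG b t) {N : Subgroup G} {z : G}
    (hN : EX b R N z) : IsPGroup 2 R := by
  have f2 : Fact (Nat.Prime 2) := ⟨Nat.prime_two⟩
  have f3 : Fact (Nat.Prime 3) := ⟨Nat.prime_three⟩
  have f5 : Fact (Nat.Prime 5) := ⟨Nat.prime_five⟩
  have f13 : Fact (Nat.Prime 13) := ⟨by norm_num⟩
  have h13 : Nat.card R ∣ 2 ^ 9 * 5 := by
    have h1 : Nat.card R ∣ (2 ^ 9 * 5) * 13 := hN.card_dvd h hq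
    apply Nat.Coprime.dvd_of_dvd_mul_right _ h1
    rw [Nat.coprime_comm, Nat.Prime.coprime_iff_not_dvd (by norm_num)]
    intro h2
    obtain ⟨v, hv⟩ := exists_prime_orderOf_dvd_card' 13 h2
    have h3 : v ^ 13 = 1 := by rw [← hv]; exact pow_orderOf_eq_one v
    have h4 : (v : G) = 1 := hN.no_thirteen h hq (by
      have := congrArg Subtype.val h3
      exact_mod_cast this)
    have h5 : v = 1 := Subtype.ext h4
    rw [h5, orderOf_one] at hv
    omega
  have hbp : IsPGroup 3 (Subgroup.zpowers b) := by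
    rw [IsPGroup.iff_card]
    refine ⟨1, ?_⟩
    rw [Nat.card_zpowers, pow_one]
    apply orderOf_eq_prime _ h.b_ne
    rw [pow_succ, pow_two]
    exact h.b3
  have hnorm : ∀ c ∈ Subgroup.zpowers b, ∀ u ∈ R, c * u * c⁻¹ ∈ R :=
    fun c _ u hu => h.nor.conj_mem u hu c
  obtain ⟨S₂, ⟨T₂, hT₂⟩, hinv₂⟩ :=
    Cfsg.Agent.Lib.PGroupCoprimeAction.exists_invariant_sylow hbp h.r3 hnorm 2
  obtain ⟨S₅, ⟨T₅, hT₅⟩, hinv₅⟩ :=
    Cfsg.Agent.Lib.PGroupCoprimeAction.exists_invariant_sylow hbp h.r3 hnorm 5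
  -- the orders
  have hi₂ : (T₂ : Subgroup R).index ∣ 5 := by
    have h1 : (T₂ : Subgroup R).index ∣ 2 ^ 9 * 5 := (Subgroup.index_dvd_card _).trans h13
    apply Nat.Coprime.dvd_of_dvd_mul_left _ h1
    apply Nat.Coprime.pow_right
    rw [Nat.coprime_comm, Nat.Prime.coprime_iff_not_dvd Nat.prime_two]
    exact T₂.not_dvd_index
  have hi₅ : (T₅ : Subgroup R).index ∣ 2 ^ 9 := by
    have h1 : (T₅ : Subgroup R).index ∣ 2 ^ 9 * 5 := (Subgroup.index_dvd_card _).trans h13
    apply Nat.Coprime.dvd_of_dvd_mul_right _ h1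
    rw [Nat.coprime_comm, Nat.Prime.coprime_iff_not_dvd Nat.prime_five]
    exact T₅.not_dvd_index
  obtain ⟨a₂, ha₂⟩ := IsPGroup.iff_card.mp T₂.isPGroup'
  obtain ⟨a₅, ha₅⟩ := IsPGroup.iff_card.mp T₅.isPGroup'
  have hm₂ := Subgroup.card_mul_index (T₂ : Subgroup R)
  have hm₅ := Subgroup.card_mul_index (T₅ : Subgroup R)
  have hcop : Nat.Coprime (Nat.card (T₂ : Subgroup R)) (Nat.card (T₅ : Subgroup R)) := by
    rw [ha₂, ha₅]
    apply Nat.Coprime.pow
    decide
  have hcopi : Nat.Coprime (T₅ : Subgroup R).index (T₂ : Subgroup R).index := by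
    apply Nat.Coprime.coprime_dvd_left hi₅
    apply Nat.Coprime.coprime_dvd_right hi₂
    apply Nat.Coprime.pow_left
    decide
  have hprod : Nat.card (T₂ : Subgroup R) * Nat.card (T₅ : Subgroup R) = Nat.card R := by
    have e1 : Nat.card (T₂ : Subgroup R) = (T₅ : Subgroup R).index := by
      apply Nat.dvd_antisymm
      · apply Nat.Coprime.dvd_of_dvd_mul_left hcop
        rw [hm₅]
        exact Subgroup.card_subgroup_dvd_card _
      · apply Nat.Coprime.dvd_of_dvd_mul_right hcopi
        rw [hm₂]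
        exact Subgroup.index_dvd_card _
    rw [e1, mul_comm, hm₅]
  have hcompl := Subgroup.isComplement'_of_coprime hprod hcop
  -- `|T₅|` divides 5
  have hc5 : Nat.card (T₅ : Subgroup R) ∣ 5 := by
    have h1 : Nat.card (T₅ : Subgroup R) ∣ 2 ^ 9 * 5 := (Subgroup.card_subgroup_dvd_card _).trans h13
    apply Nat.Coprime.dvd_of_dvd_mul_left _ h1
    rw [ha₅]
    apply Nat.Coprime.pow
    decide
  have hcS5 : Nat.card S₅ = Nat.card (T₅ : Subgroup R) := by
    rw [← hT₅]
    exact Nat.card_congr (Subgroup.equivMapOfInjective _ _ R.subtype_injective).symm.toEquiv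
  -- `b` centralizes `S₅`
  have hb5 : ∀ u ∈ S₅, b * u = u * b := by
    have h1 := cn_mod 3 S₅ b (by rw [pow_succ, pow_two]; exact h.b3)
      (fun x hx => hinv₅ b (Subgroup.mem_zpowers b) x hx)
    have h2 := Subgroup.card_dvd_of_le (cn_le S₅ b)
    have h3 : Nat.card (cn S₅ b) = Nat.card S₅ := by
      rw [← hcS5] at hc5
      rcases (Nat.dvd_prime Nat.prime_five).mp hc5 with h4 | h4
      · rw [h4] at h2 ⊢
        exact Nat.dvd_one.mp h2
      · rw [h4] at h1 h2 ⊢
        rcases (Nat.dvd_prime Nat.prime_five).mp h2 with h5 | h5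
        · rw [h5] at h1
          exact absurd h1 (by decide)
        · exact h5
    have h4 : cn S₅ b = S₅ := Subgroup.eq_of_le_of_card_ge (cn_le S₅ b) h3.ge
    intro u hu
    rw [← h4] at hu
    rw [mul_eq_cj, hu.2]
  -- `R ≤ S₂`
  have hRS : R ≤ S₂ := by
    rw [← h.comm, Subgroup.commutator_le]
    intro r hr c hc
    obtain ⟨⟨s, u⟩, hsu⟩ := hcompl.existsUnique (⟨r, hr⟩ : R) |>.exists
    have hr' : r = (s : R) * (u : R) := by
      have := congrArg Subtype.val hsu
      exact this.symm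
    have hsS : ((s : R) : G) ∈ S₂ := by rw [← hT₂]; exact ⟨s, s.2, rfl⟩
    have huS : ((u : R) : G) ∈ S₅ := by rw [← hT₅]; exact ⟨u, u.2, rfl⟩
    have hcu : c * ((u : R) : G) = ((u : R) : G) * c := by
      obtain ⟨k, rfl⟩ := Subgroup.mem_zpowers_iff.mp hc
      exact ((show Commute b ((u : R) : G) from hb5 _ huS).zpow_left k).eq
    have e : ⁅r, c⁆ = ((s : R) : G) * (c * ((s : R) : G)⁻¹ * c⁻¹) := by
      rw [commutatorElement_def, hr']
      generalize ((s : R) : G) = s' at *
      generalize ((u : R) : G) = u' at *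
      calc s' * u' * c * (s' * u')⁻¹ * c⁻¹ = s' * (u' * c) * u'⁻¹ * s'⁻¹ * c⁻¹ := by group
        _ = s' * (c * u') * u'⁻¹ * s'⁻¹ * c⁻¹ := by rw [hcu]
        _ = s' * (c * s'⁻¹ * c⁻¹) := by group
    rw [e]
    exact S₂.mul_mem hsS (hinv₂ c hc _ (S₂.inv_mem hsS))
  have hS₂ : IsPGroup 2 S₂ := by
    rw [← hT₂]
    exact T₂.isPGroup'.map R.subtype
  exact hS₂.to_le hRS

end Cfsg.Agent.H587.Cubic
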