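import Mathlib

/-!
# S4415, part I: solvable permutation groups generated by the conjugates of a 3-cycle

A transitive solvable group that is the normal closure of an element acting as a 3-cycle has degree at most four.
-/

set_option autoImplicit false
set_option linter.unusedSectionVars false
set_option linter.unusedVariables false

namespace Cfsg.Agent.H587.Cubic

open scoped Pointwise

theorem perm_small {G X : Type*} [Group G] [Group.IsSolvable G] [MulAction G X] [Finite X]
    [MulAction.IsPretransitive G X] (b : G) (x₁ x₂ x₃ : X) (h12 : b • x₁ = x₂) (h23 : b • x₂ = x₃)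
    (h31 : b • x₃ = x₁) (hne : x₁ ≠ x₂)
    (hfix : ∀ x, x ≠ x₁ → x ≠ x₂ → x ≠ x₃ → b • x = x)
    (htop : ∀ N : Subgroup G, N.Normal → b ∈ N → N = ⊤) : Nat.card X ≤ 4 := by
  classical
  have := Fintype.ofFinite X
  have hne23 : x₂ ≠ x₃ := by
    intro h
    apply hne
    apply MulAction.injective b
    show b • x₁ = b • x₂
    rw [h12, h23, h]
  have hne13 : x₁ ≠ x₃ := by
    intro h
    apply hne
    rw [← h12]
    nth_rewrite 2 [h]
    rw [h31]
  have hmoved : ∀ x, b • x ≠ x → x = x₁ ∨ x = x₂ ∨ x = x₃ := by
    intro x hx
    by_contra hcon
    push Not at hcon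
    exact hx (hfix x hcon.1 hcon.2.1 hcon.2.2)
  -- the action is primitive
  have hprim : MulAction.IsPreprimitive G X := by
    constructor
    intro B hB
    by_cases hsub : B.Subsingleton
    · exact Or.inl hsub
    right
    rw [Set.not_subsingleton_iff] at hsub
    -- every conjugate of `b` fixes `B`
    have hconj : ∀ g : G, (g * b * g⁻¹) • B = B := by
      intro g
      have hB' : MulAction.IsBlock G (g⁻¹ • B) := hB.translate g⁻¹
      have key : b • (g⁻¹ • B) = g⁻¹ • B := by
        rcases hB'.smul_eq_or_disjoint b with h | h
        · exact h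
        exfalso
        have hnt : (g⁻¹ • B).Nontrivial := hsub.image (MulAction.injective g⁻¹)
        obtain ⟨u, hu, v, hv, huv⟩ := hnt
        have hdis : ∀ p ∈ g⁻¹ • B, ∀ q ∈ g⁻¹ • B, b • p ≠ q := by
          intro p hp q hq hpq
          exact Set.disjoint_left.mp h (Set.smul_mem_smul_set hp) (hpq ▸ hq)
        have hu' := hmoved u (hdis u hu u hu)
        have hv' := hmoved v (hdis v hv v hv)
        have huv' := hdis u hu v hv
        have hvu' := hdis v hv u hu
        rcases hu' with rfl | rfl | rfl <;> rcases hv' with rfl | rfl | rfl
        · exact huv rfl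
        · exact huv' h12
        · exact hvu' h31
        · exact hvu' h12
        · exact huv rfl
        · exact huv' h23
        · exact huv' h31
        · exact hvu' h23
        · exact huv rfl
      rw [mul_smul, mul_smul, key, smul_inv_smul]
    have hst : MulAction.stabilizer G B = ⊤ := by
      have h1 : Subgroup.normalClosure ({b} : Set G) = ⊤ :=
        htop _ Subgroup.normalClosure_normal (Subgroup.subset_normalClosure rfl)
      rw [eq_top_iff, ← h1]
      unfold Subgroup.normalClosure
      rw [Subgroup.closure_le]
      intro c hc
      rw [Group.mem_conjugatesOfSet_iff] at hc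
      obtain ⟨d, hd, hdc⟩ := hc
      rw [Set.mem_singleton_iff] at hd
      subst hd
      rw [isConj_iff] at hdc
      obtain ⟨g, rfl⟩ := hdc
      exact hconj g
    obtain ⟨u, hu, v, hv, huv⟩ := hsub
    rw [Set.eq_univ_iff_forall]
    intro x
    obtain ⟨g, rfl⟩ := MulAction.exists_smul_eq G u x
    have h2 : g • B = B := by
      have : g ∈ MulAction.stabilizer G B := by rw [hst]; trivial
      exact this
    rw [← h2]
    exact Set.smul_mem_smul_set hu
  -- the image
  let H := (MulAction.toPermHom G X).range
  have hprimH : MulAction.IsPreprimitive H X := by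
    let φ : G → H := (MulAction.toPermHom G X).rangeRestrict
    let f : X →ₑ[φ] X := { toFun := id, map_smul' := fun g x => rfl }
    have hφ : Function.Surjective φ := (MulAction.toPermHom G X).rangeRestrict_surjective
    exact (MulAction.isPreprimitive_congr (f := f) hφ Function.bijective_id).mp hprim
  have hcyc : (MulAction.toPermHom G X b).IsThreeCycle := by
    rw [← card_support_eq_three_iff]
    have : (MulAction.toPermHom G X b).support = {x₁, x₂, x₃} := by
      ext x
      rw [Equiv.Perm.mem_support]
      simp only [Finset.mem_insert, Finset.mem_singleton]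
      constructor
      · exact hmoved x
      · rintro (rfl | rfl | rfl)
        · show b • x ≠ x
          rw [h12]; exact hne.symm
        · show b • x ≠ x
          rw [h23]; exact hne23.symm
        · show b • x ≠ x
          rw [h31]; exact hne13
    rw [this, Finset.card_eq_three]
    exact ⟨x₁, x₂, x₃, hne, hne13, hne23, rfl⟩
  have halt := Equiv.Perm.alternatingGroup_le_of_isPreprimitive_of_isThreeCycle_mem hprimH hcyc
    ⟨b, rfl⟩
  -- solvable
  have hsolH : Group.IsSolvable H :=
    Group.isSolvable_of_surjective (MulAction.toPermHom G X).rangeRestrict_surjective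
  have hsolA : Group.IsSolvable (alternatingGroup X) :=
    Group.isSolvable_of_isSolvable_injective (Subgroup.inclusion_injective halt)
  have hsolP : Group.IsSolvable (Equiv.Perm X) := by
    apply Group.isSolvable_of_ker_le_range (alternatingGroup X).subtype
      (Equiv.Perm.sign : Equiv.Perm X →* ℤˣ)
    rw [Subgroup.range_subtype]
    exact le_rfl
  by_contra hcon
  push Not at hcon
  apply Equiv.Perm.not_isSolvable X _ hsolP
  rw [Cardinal.mk_fintype, ← Nat.card_eq_fintype_card]
  exact_mod_cast hcon

end Cfsg.Agent.H587.Cubic
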