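import Mathlib
import Cfsg.Agent.OddOrderLocal.Thm34Weights
import Cfsg.Agent.Lib.PGroupFixedVector

/-!
# Fixed points of an `ℓ`-group in characteristic `ℓ` and orbits on the weights of a normal abelian subgroup

`A` is a normal abelian `ℓ'`-subgroup, `T` an `ℓ`-subgroup, `x` an element of prime order `q ≠ ℓ` fixing no weight
of `A`. Then `T` has at least two orbits on the weights, so that `dim C_W(T) ≥ 2`; if `x` leaves `C_W(T)`
invariant, then `dim C_W(T) ≥ q`.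
-/

set_option autoImplicit false
set_option linter.unusedSectionVars false

namespace Cfsg.Agent.H587.OrbitWeights

open Module Cfsg.Agent.OddOrderLocal.Thm34Weights

attribute [local instance] wtAction

section

variable {K : Type*} [Field K] {G : Type*} [Group G] {W : Type*} [AddCommGroup W] [Module K W]

/-- The sum of the other weight spaces. -/
def cw (ρ : Representation K G W) (A : Subgroup G) (χ : A → K) : Submodule K W :=
  ⨆ (ψ : A → K) (_ : ψ ≠ χ), wt ρ A ψ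

/-- The sum of the weight spaces of a set of weights. -/
def us (ρ : Representation K G W) (A : Subgroup G) (O : Set (A → K)) : Submodule K W :=
  ⨆ (ψ : A → K) (_ : ψ ∈ O), wt ρ A ψ

/-- The support. -/
def supp (ρ : Representation K G W) (A : Subgroup G) (w : W) : Set (A → K) := {χ | w ∉ cw ρ A χ}

/-- The fixed points. -/
def fix (ρ : Representation K G W) (T : Subgroup G) : Submodule K W where
  carrier := {w | ∀ t ∈ T, ρ t w = w}
  add_mem' := by
    intro a b ha hb t ht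
    rw [map_add, ha t ht, hb t ht]
  zero_mem' := by
    intro t _
    rw [map_zero]
  smul_mem' := by
    intro c a ha t ht
    rw [map_smul, ha t ht]

variable {ρ : Representation K G W} {A : Subgroup G}

theorem mem_fix {T : Subgroup G} {w : W} : w ∈ fix ρ T ↔ ∀ t ∈ T, ρ t w = w := Iff.rfl

theorem supp_subset {O : Set (A → K)} {w : W} (hw : w ∈ us ρ A O) : supp ρ A w ⊆ O := by
  intro χ hχ
  by_contra hO
  apply hχ
  have : us ρ A O ≤ cw ρ A χ := by
    refine iSup₂_le ?_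
    intro ψ hψ
    exact le_iSup₂_of_le (f := fun (ψ' : A → K) (_ : ψ' ≠ χ) => wt ρ A ψ') ψ
      (fun h => hO (h ▸ hψ)) le_rfl
  exact this hw

theorem smul_mem_cw [A.Normal] {χ : A → K} {w : W} (hw : w ∈ cw ρ A χ) (g : G) :
    ρ g w ∈ cw ρ A (g • χ) := by
  have h1 : cw ρ A χ ≤ (cw ρ A (g • χ)).comap (ρ g) := by
    refine iSup₂_le ?_
    intro ψ hψ v hv
    have h2 := smul_mem_wt hv g
    have h3 : wt ρ A (g • ψ) ≤ cw ρ A (g • χ) :=
      le_iSup₂_of_le (f := fun (ψ' : A → K) (_ : ψ' ≠ g • χ) => wt ρ A ψ') (g • ψ)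
        (fun h => hψ (MulAction.injective g h)) le_rfl
    exact h3 h2
  exact h1 hw

theorem smul_mem_supp [A.Normal] {χ : A → K} {w : W} (g : G) (h : χ ∈ supp ρ A w) :
    g • χ ∈ supp ρ A (ρ g w) := by
  intro h1
  apply h
  have h2 := smul_mem_cw h1 g⁻¹
  rw [inv_smul_smul] at h2
  have : ρ g⁻¹ (ρ g w) = w := ρ.inv_self_apply g w
  rwa [this] at h2

theorem smul_mem_us [A.Normal] {O : Set (A → K)} {w : W} (g : G)
    (hO : ∀ χ ∈ O, g • χ ∈ O) (hw : w ∈ us ρ A O) : ρ g w ∈ us ρ A O := by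
  have h1 : us ρ A O ≤ (us ρ A O).comap (ρ g) := by
    refine iSup₂_le ?_
    intro ψ hψ v hv
    have h2 := smul_mem_wt hv g
    have h3 : wt ρ A (g • ψ) ≤ us ρ A O :=
      le_iSup₂_of_le (f := fun (ψ' : A → K) (_ : ψ' ∈ O) => wt ρ A ψ') (g • ψ) (hO ψ hψ) le_rfl
    exact h3 h2
  exact h1 hw

/-- Nonzero vectors with a private element in the support are linearly independent. -/
theorem linInd {ι : Type*} [Fintype ι] (w : ι → W)
    (h : ∀ i, ∃ χ, w i ∉ cw ρ A χ ∧ ∀ j, j ≠ i → w j ∈ cw ρ A χ) : LinearIndependent K w := by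
  classical
  rw [Fintype.linearIndependent_iff]
  intro c hc i
  obtain ⟨χ, h1, h2⟩ := h i
  by_contra hci
  apply h1
  have h3 : c i • w i = - ∑ j ∈ Finset.univ.erase i, c j • w j := by
    rw [← Finset.add_sum_erase _ _ (Finset.mem_univ i)] at hc
    exact eq_neg_of_add_eq_zero_left hc
  have h4 : c i • w i ∈ cw ρ A χ := by
    rw [h3]
    apply Submodule.neg_mem
    apply Submodule.sum_mem
    intro j hj
    exact Submodule.smul_mem _ _ (h2 j (Finset.ne_of_mem_erase hj))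
  exact (Submodule.smul_mem_iff _ hci).mp h4

theorem le_finrank {k : ℕ} [FiniteDimensional K W] (T : Subgroup G) (w : Fin k → W)
    (hw : ∀ i, w i ∈ fix ρ T)
    (h : ∀ i, ∃ χ, w i ∉ cw ρ A χ ∧ ∀ j, j ≠ i → w j ∈ cw ρ A χ) : k ≤ finrank K (fix ρ T) := by
  have h1 := linInd w h
  have h2 : LinearIndependent K (fun i => (⟨w i, hw i⟩ : fix ρ T)) := by
    apply LinearIndependent.of_comp (fix ρ T).subtype
    exact h1
  have := h2.fintype_card_le_finrank
  rwa [Fintype.card_fin] at this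

variable [IsAlgClosed K] [FiniteDimensional K W] [Finite A]

theorem supp_nonempty (hA : (Nat.card A : K) ≠ 0) (hcomm : ∀ a ∈ A, ∀ b ∈ A, a * b = b * a) {w : W}
    (hw : w ≠ 0) : (supp ρ A w).Nonempty := by
  classical
  have h1 : w ∈ ⨆ χ : A → K, wt ρ A χ := by rw [iSup_wt ρ A hA hcomm]; trivial
  rw [Submodule.mem_iSup_iff_exists_finsupp] at h1
  obtain ⟨f, hf, hsum⟩ := h1
  have h2 : ∃ χ, f χ ≠ 0 := by
    by_contra hcon
    push Not at hcon
    apply hw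
    rw [← hsum]
    unfold Finsupp.sum
    exact Finset.sum_eq_zero (fun χ _ => hcon χ)
  obtain ⟨χ, hχ⟩ := h2
  refine ⟨χ, ?_⟩
  intro hmem
  have hind := indep_wt ρ A hA hcomm χ
  rw [Submodule.disjoint_def] at hind
  apply hχ
  apply hind (f χ) (hf χ)
  have h3 : f χ = w - ∑ ψ ∈ f.support.erase χ, f ψ := by
    rw [← hsum]
    unfold Finsupp.sum
    rw [← Finset.add_sum_erase _ _ (Finsupp.mem_support_iff.mpr hχ)]
    abel
  rw [h3]
  apply Submodule.sub_mem _ hmem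
  apply Submodule.sum_mem
  intro ψ hψ
  have h4 : wt ρ A ψ ≤ ⨆ (ψ' : A → K) (_ : ψ' ≠ χ), wt ρ A ψ' :=
    le_iSup₂_of_le (f := fun (ψ' : A → K) (_ : ψ' ≠ χ) => wt ρ A ψ') ψ (Finset.ne_of_mem_erase hψ) le_rfl
  exact h4 (hf ψ)

/-- The set of weights. -/
def Om (ρ : Representation K G W) (A : Subgroup G) : Set (A → K) := {χ | wt ρ A χ ≠ ⊥}

theorem finite_Om (hA : (Nat.card A : K) ≠ 0) (hcomm : ∀ a ∈ A, ∀ b ∈ A, a * b = b * a) :
    (Om ρ A).Finite := by
  have := (indep_wt ρ A hA hcomm)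
  exact WellFoundedGT.finite_ne_bot_of_iSupIndep this

/-- An invariant set of weights is the home of a nonzero fixed vector. -/
theorem exists_fixed {ℓ : ℕ} [Fact ℓ.Prime] [CharP K ℓ] [A.Normal] (T : Subgroup G) [Finite T]
    (hT : IsPGroup ℓ T) {O : Set (A → K)} (hO : ∀ χ ∈ O, ∀ t ∈ T, t • χ ∈ O)
    (hne : ∃ χ ∈ O, χ ∈ Om ρ A) : ∃ w ∈ fix ρ T, w ≠ 0 ∧ w ∈ us ρ A O := by
  have h0 : us ρ A O ≠ ⊥ := by
    obtain ⟨χ, hχ, hχ'⟩ := hne
    intro hbot
    apply hχ'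
    rw [eq_bot_iff, ← hbot]
    exact le_iSup₂_of_le (f := fun (ψ' : A → K) (_ : ψ' ∈ O) => wt ρ A ψ') χ hχ le_rfl
  obtain ⟨w, hw, hw0, hwT⟩ := Cfsg.Agent.Lib.PGroupFixedVector.exists_mem_ne_zero_fixed_rep hT
    (ρ.comp T.subtype) (us ρ A O) (fun t v hv => smul_mem_us (t : G) (fun χ hχ => hO χ hχ t t.2) hv) h0
  exact ⟨w, fun t ht => hwT ⟨t, ht⟩, hw0, hw⟩

theorem smul_mem_Om [A.Normal] {χ : A → K} (h : χ ∈ Om ρ A) (g : G) : g • χ ∈ Om ρ A :=
  wt_smul_ne_bot h g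

/-- An element of prime order `q` without fixed weights: the size of an invariant finite set of weights is
divisible by `q`. -/
theorem dvd_card [A.Normal] {q : ℕ} [Fact q.Prime] {y : G} (hy : y ^ q = 1)
    (hfree : ∀ χ ∈ Om ρ A, y • χ ≠ χ) (B : Set (A → K)) (hfin : B.Finite) (hB : B ⊆ Om ρ A)
    (hyB : ∀ χ ∈ B, y • χ ∈ B) : q ∣ B.ncard := by
  classical
  by_contra hcon
  have := hfin.fintype
  let f : B → B := fun χ => ⟨y • χ.1, hyB χ.1 χ.2⟩
  have hf : Function.Injective f := by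
    intro a b hab
    exact Subtype.ext (MulAction.injective y (congrArg Subtype.val hab))
  let σ : Equiv.Perm B := Equiv.ofBijective f (Finite.injective_iff_bijective.mp hf)
  have hσ : ∀ (k : ℕ) (χ : B), ((σ ^ k) χ : A → K) = y ^ k • (χ : A → K) := by
    intro k
    induction k with
    | zero => intro χ; rw [pow_zero, pow_zero, one_smul]; rfl
    | succ k ih =>
      intro χ
      rw [pow_succ, pow_succ, Equiv.Perm.mul_apply, ih, mul_smul]
      rfl
  have hσ1 : σ ^ q ^ 1 = 1 := by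
    rw [pow_one]
    ext1 χ
    apply Subtype.ext
    rw [hσ, hy, one_smul]
    rfl
  have hc : ¬ q ∣ Fintype.card B := by
    rwa [← Nat.card_eq_fintype_card, Nat.card_coe_set_eq]
  obtain ⟨a, ha⟩ := Equiv.Perm.exists_fixed_point_of_prime hc hσ1
  exact hfree a.1 (hB a.2) (congrArg Subtype.val ha)

theorem exists_Om (hA : (Nat.card A : K) ≠ 0) (hcomm : ∀ a ∈ A, ∀ b ∈ A, a * b = b * a)
    [Nontrivial W] : ∃ χ, χ ∈ Om ρ A := by
  by_contra hcon
  push Not at hcon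
  have h1 := iSup_wt ρ A hA hcomm
  have h2 : ⨆ χ : A → K, wt ρ A χ = ⊥ := by
    rw [eq_bot_iff]
    refine iSup_le ?_
    intro χ
    have := hcon χ
    have h3 : ¬ (wt ρ A χ ≠ ⊥) := this
    rw [not_not] at h3
    rw [h3]
  rw [h2] at h1
  exact bot_ne_top h1

theorem orbit_subset_Om [A.Normal] {T : Subgroup G} {χ : A → K} (h : χ ∈ Om ρ A) :
    MulAction.orbit T χ ⊆ Om ρ A := by
  rintro _ ⟨t, rfl⟩
  exact smul_mem_Om h (t : G)

theorem orbit_invariant [A.Normal] {T : Subgroup G} {χ ψ : A → K} (h : ψ ∈ MulAction.orbit T χ) {t : G}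
    (ht : t ∈ T) : t • ψ ∈ MulAction.orbit T χ := by
  obtain ⟨s, hs⟩ := h
  refine ⟨⟨t, ht⟩ * s, ?_⟩
  have h1 : (s : G) • χ = ψ := hs
  show (t * (s : G)) • χ = t • ψ
  rw [mul_smul, h1]

theorem card_orbit [A.Normal] {ℓ : ℕ} [Fact ℓ.Prime] {T : Subgroup G} [Finite T] (hT : IsPGroup ℓ T)
    (χ : A → K) : ∃ n, (MulAction.orbit T χ).ncard = ℓ ^ n := by
  have : Finite (MulAction.orbit T χ) := Set.finite_range _
  obtain ⟨n, hn⟩ := hT.card_orbit χ
  exact ⟨n, by rw [← hn, Nat.card_coe_set_eq]⟩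

theorem two_le [A.Normal] (hA : (Nat.card A : K) ≠ 0) (hcomm : ∀ a ∈ A, ∀ b ∈ A, a * b = b * a)
    [Nontrivial W] {ℓ : ℕ} [Fact ℓ.Prime] [CharP K ℓ] (T : Subgroup G) [Finite T] (hT : IsPGroup ℓ T)
    {q : ℕ} [Fact q.Prime] (hq : q ≠ ℓ) {x : G} (hx : x ^ q = 1) (hfree : ∀ χ ∈ Om ρ A, x • χ ≠ χ) :
    2 ≤ finrank K (fix ρ T) := by
  obtain ⟨χ, hχ⟩ := exists_Om (ρ := ρ) hA hcomm
  have hO : ∃ ψ ∈ Om ρ A \ MulAction.orbit T χ, ψ ∈ Om ρ A := by
    by_contra hcon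
    push Not at hcon
    have h1 : Om ρ A = MulAction.orbit T χ := by
      apply Set.Subset.antisymm
      · intro ψ hψ
        by_contra hn
        exact hcon ψ ⟨hψ, hn⟩ hψ
      · exact orbit_subset_Om hχ
    have h2 := dvd_card hx hfree (Om ρ A) (finite_Om hA hcomm) (le_refl _)
      (fun ψ hψ => smul_mem_Om hψ x)
    obtain ⟨n, hn⟩ := card_orbit (T := T) hT χ
    rw [h1, hn] at h2
    have h3 := (Fact.out : q.Prime).dvd_of_dvd_pow h2
    rcases (Nat.dvd_prime (Fact.out : ℓ.Prime)).mp h3 with h4 | h4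
    · exact (Fact.out : q.Prime).one_lt.ne' h4
    · exact hq h4
  obtain ⟨w₁, hw₁, hw₁0, hu₁⟩ := exists_fixed (ρ := ρ) T hT (O := MulAction.orbit T χ)
    (fun ψ hψ t ht => orbit_invariant hψ ht) ⟨χ, MulAction.mem_orbit_self χ, hχ⟩
  obtain ⟨w₂, hw₂, hw₂0, hu₂⟩ := exists_fixed (ρ := ρ) T hT (O := Om ρ A \ MulAction.orbit T χ)
    (fun ψ hψ t ht => ⟨smul_mem_Om hψ.1 t, fun h => hψ.2 (by
      have := orbit_invariant h (T.inv_mem ht)
      rwa [inv_smul_smul] at this)⟩) hO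
  have s1 := supp_subset hu₁
  have s2 := supp_subset hu₂
  obtain ⟨χ₁, hχ₁⟩ := supp_nonempty (ρ := ρ) hA hcomm hw₁0
  obtain ⟨χ₂, hχ₂⟩ := supp_nonempty (ρ := ρ) hA hcomm hw₂0
  refine le_finrank (A := A) T ![w₁, w₂] ?_ ?_
  · intro i
    fin_cases i
    · exact hw₁
    · exact hw₂
  · intro i
    fin_cases i
    · refine ⟨χ₁, hχ₁, ?_⟩
      intro j hj
      fin_cases j
      · exact absurd rfl hj
      · show w₂ ∈ _
        by_contra h
        exact (s2 h).2 (s1 hχ₁)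
    · refine ⟨χ₂, hχ₂, ?_⟩
      intro j hj
      fin_cases j
      · show w₁ ∈ _
        by_contra h
        exact (s2 hχ₂).2 (s1 h)
      · exact absurd rfl hj

/-- If `x` leaves the fixed points of `T` invariant then their dimension is at least `q`. -/
theorem q_le [A.Normal] (hA : (Nat.card A : K) ≠ 0) (hcomm : ∀ a ∈ A, ∀ b ∈ A, a * b = b * a)
    [Nontrivial W] {ℓ : ℕ} [Fact ℓ.Prime] [CharP K ℓ] (T : Subgroup G) [Finite T] (hT : IsPGroup ℓ T)
    {q : ℕ} [Fact q.Prime] (hq : q ≠ ℓ) {x : G} (hx : orderOf x = q)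
    (hfree : ∀ y ∈ Subgroup.zpowers x, y ≠ 1 → ∀ χ ∈ Om ρ A, y • χ ≠ χ)
    (hinv : ∀ w ∈ fix ρ T, ρ x w ∈ fix ρ T) : q ≤ finrank K (fix ρ T) := by
  obtain ⟨χ, hχ, hmin⟩ := Set.exists_min_image (Om ρ A) (fun χ => (MulAction.orbit T χ).ncard)
    (finite_Om hA hcomm) (exists_Om (ρ := ρ) hA hcomm)
  obtain ⟨w, hw, hw0, hu⟩ := exists_fixed (ρ := ρ) T hT (O := MulAction.orbit T χ)
    (fun ψ hψ t ht => orbit_invariant hψ ht) ⟨χ, MulAction.mem_orbit_self χ, hχ⟩
  -- the support of a fixed vector is invariant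
  have hsinv : ∀ v ∈ fix ρ T, ∀ ψ ∈ supp ρ A v, MulAction.orbit T ψ ⊆ supp ρ A v := by
    rintro v hv ψ hψ _ ⟨t, rfl⟩
    have h1 := smul_mem_supp (t : G) hψ
    rw [hv t t.2] at h1
    exact h1
  have hsupp : supp ρ A w = MulAction.orbit T χ := by
    apply Set.Subset.antisymm (supp_subset hu)
    obtain ⟨ψ, hψ⟩ := supp_nonempty (ρ := ρ) hA hcomm hw0
    have h1 := hsinv w hw ψ hψ
    have h2 := supp_subset hu hψ
    rw [← MulAction.orbit_eq_iff.mpr h2]
    exact h1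
  -- the images under the powers of `x`
  have hpow : ∀ k : ℕ, ρ (x ^ k) w ∈ fix ρ T := by
    intro k
    induction k with
    | zero => rw [pow_zero, map_one]; exact hw
    | succ k ih =>
      rw [pow_succ', map_mul]
      exact hinv _ ih
  have hsk : ∀ (k : ℕ) (ψ : A → K), ψ ∈ supp ρ A (ρ (x ^ k) w) ↔ (x ^ k)⁻¹ • ψ ∈ MulAction.orbit T χ := by
    intro k ψ
    rw [← hsupp]
    constructor
    · intro h
      have h1 := smul_mem_supp (x ^ k)⁻¹ h
      have h2 : ρ (x ^ k)⁻¹ (ρ (x ^ k) w) = w := ρ.inv_self_apply _ _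
      rwa [h2] at h1
    · intro h
      have h1 := smul_mem_supp (x ^ k) h
      rwa [smul_inv_smul] at h1
  have hfinO : (MulAction.orbit T χ).Finite := Set.finite_range _
  have hsO : ∀ k : ℕ, supp ρ A (ρ (x ^ k) w) = (fun ψ => x ^ k • ψ) '' MulAction.orbit T χ := by
    intro k
    ext ψ
    rw [hsk]
    constructor
    · intro h
      exact ⟨_, h, smul_inv_smul _ _⟩
    · rintro ⟨φ, hφ, rfl⟩
      show (x ^ k)⁻¹ • x ^ k • φ ∈ _
      rwa [inv_smul_smul]
  have hcard : ∀ k : ℕ, (supp ρ A (ρ (x ^ k) w)).ncard = (MulAction.orbit T χ).ncard := by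
    intro k
    rw [hsO]
    exact Set.ncard_image_of_injective _ (MulAction.injective (x ^ k))
  have hfinS : ∀ k : ℕ, (supp ρ A (ρ (x ^ k) w)).Finite := by
    intro k
    rw [hsO]
    exact hfinO.image _
  refine le_finrank (A := A) T (fun k : Fin q => ρ (x ^ (k : ℕ)) w) (fun k => hpow k) ?_
  intro i
  refine ⟨x ^ (i : ℕ) • χ, ?_, ?_⟩
  · have : x ^ (i : ℕ) • χ ∈ supp ρ A (ρ (x ^ (i : ℕ)) w) := by
      rw [hsk, inv_smul_smul]
      exact MulAction.mem_orbit_self χ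
    exact this
  · intro j hj
    by_contra hcon
    have h1 : x ^ (i : ℕ) • χ ∈ supp ρ A (ρ (x ^ (j : ℕ)) w) := hcon
    have h2 : x ^ (i : ℕ) • χ ∈ supp ρ A (ρ (x ^ (i : ℕ)) w) := by
      rw [hsk, inv_smul_smul]
      exact MulAction.mem_orbit_self χ
    have h3 := hmin (x ^ (i : ℕ) • χ) (smul_mem_Om hχ _)
    have h4 : MulAction.orbit T (x ^ (i : ℕ) • χ) = supp ρ A (ρ (x ^ (i : ℕ)) w) :=
      Set.eq_of_subset_of_ncard_le (hsinv _ (hpow i) _ h2) (by rw [hcard]; exact h3) (hfinS i)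
    have h5 : MulAction.orbit T (x ^ (i : ℕ) • χ) = supp ρ A (ρ (x ^ (j : ℕ)) w) :=
      Set.eq_of_subset_of_ncard_le (hsinv _ (hpow j) _ h1) (by rw [hcard]; exact h3) (hfinS j)
    have h6 := h4.symm.trans h5
    -- the element `y = (x ^ j)⁻¹ * x ^ i` leaves the orbit invariant
    have hy1 : (x ^ (j : ℕ))⁻¹ * x ^ (i : ℕ) ≠ 1 := by
      intro h
      have h7 : x ^ (i : ℕ) = x ^ (j : ℕ) := by
        rw [inv_mul_eq_one] at h
        exact h.symm
      have h8 := pow_injOn_Iio_orderOf (x := x) (by rw [Set.mem_Iio, hx]; exact i.2)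
        (by rw [Set.mem_Iio, hx]; exact j.2) h7
      exact hj (Fin.ext h8.symm)
    have hyz : (x ^ (j : ℕ))⁻¹ * x ^ (i : ℕ) ∈ Subgroup.zpowers x :=
      Subgroup.mul_mem _ (Subgroup.inv_mem _ (Subgroup.npow_mem_zpowers x _))
        (Subgroup.npow_mem_zpowers x _)
    have hyq : ((x ^ (j : ℕ))⁻¹ * x ^ (i : ℕ)) ^ q = 1 := by
      obtain ⟨n, hn⟩ := Subgroup.mem_zpowers_iff.mp hyz
      rw [← hn, ← zpow_natCast, ← zpow_mul, mul_comm, zpow_mul, zpow_natCast, ← hx, pow_orderOf_eq_one,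
        one_zpow]
    have hinvO : ∀ ψ ∈ MulAction.orbit T χ, ((x ^ (j : ℕ))⁻¹ * x ^ (i : ℕ)) • ψ ∈ MulAction.orbit T χ := by
      intro ψ hψ
      rw [mul_smul, ← hsk, ← h6, hsk, inv_smul_smul]
      exact hψ
    have h7 := dvd_card hyq (hfree _ hyz hy1) _ hfinO (orbit_subset_Om hχ) hinvO
    obtain ⟨n, hn⟩ := card_orbit (T := T) hT χ
    rw [hn] at h7
    have h8 := (Fact.out : q.Prime).dvd_of_dvd_pow h7
    rcases (Nat.dvd_prime (Fact.out : ℓ.Prime)).mp h8 with h9 | h9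
    · exact (Fact.out : q.Prime).one_lt.ne' h9
    · exact hq h9

end

end Cfsg.Agent.H587.OrbitWeights
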