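import Mathlib
import Cfsg.Agent.H587.CubicH
import Cfsg.Agent.H587.CubicI
import Cfsg.Agent.H587.OrbitWeights

/-!
# S4415, part J: the monomial structure
-/

set_option autoImplicit false
set_option linter.unusedSectionVars false
set_option linter.unusedVariables false

namespace Cfsg.Agent.H587.Cubic

open Module Cfsg.Agent.OddOrderLocal.Thm34Weights Cfsg.Agent.H587.OrbitWeights
open scoped commutatorElement

attribute [local instance] wtAction

universe u w

/-- An elementary abelian 2-group is diagonalizable. -/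
theorem iSup_two {G : Type*} [Group G] {E : Type*} [AddCommGroup E] [Module (ZMod 3) E] [Finite E]
    (ρ : Representation (ZMod 3) G E) (A : Subgroup G) [Finite A] (hA : (Nat.card A : ZMod 3) ≠ 0)
    (hcomm : ∀ a ∈ A, ∀ b ∈ A, a * b = b * a) (hA2 : ∀ a ∈ A, a * a = 1) :
    ⨆ χ : A → ZMod 3, wt ρ A χ = ⊤ := by
  have hfin : Module.Finite (ZMod 3) E := Module.Finite.of_finite
  have h2 : ∀ χ : A → ZMod 3, wt ρ A χ = ⨅ k : A, End.maxGenEigenspace (ρ k) (χ k) :=
    fun χ => wt_eq ρ A hA χ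
  simp only [h2]
  apply Module.End.iSup_iInf_maxGenEigenspace_eq_top_of_iSup_maxGenEigenspace_eq_top_of_commute
    (fun k : A => ρ (k : G))
  · intro i j _
    exact commute_of_comm ρ A hcomm i j
  · intro k
    rw [eq_top_iff]
    intro v _
    obtain ⟨v₁, v₂, rfl, h3, h4⟩ := decomp (ρ := ρ) (k : G) (hA2 k k.2) v
    apply Submodule.add_mem
    · apply Submodule.mem_iSup_of_mem (1 : ZMod 3)
      apply Module.End.eigenspace_le_maxGenEigenspace
      rw [Module.End.mem_eigenspace_iff, one_smul]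
      exact h3
    · apply Submodule.mem_iSup_of_mem (-1 : ZMod 3)
      apply Module.End.eigenspace_le_maxGenEigenspace
      rw [Module.End.mem_eigenspace_iff, neg_smul, one_smul]
      exact h4

/-- Monomial data. -/
structure MD {G : Type u} [Group G] {E : Type w} [AddCommGroup E] [Module (ZMod 3) E]
    (ρ : Representation (ZMod 3) G E) (R : Subgroup G) (b : G) where
  X : Type u
  [act : MulAction G X]
  [fin : Finite X]
  [trans : MulAction.IsPretransitive G X]
  v : X → E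
  s : G → X → ZMod 3
  U : Submodule (ZMod 3) E
  U' : Submodule (ZMod 3) E
  t : G
  x₁ : X
  hv : ∀ (g : G) (x : X), ρ g (v x) = s g x • v (g • x)
  ne : ∀ x : X, v x ≠ 0
  inf : U ⊓ U' = ⊥
  sup : U ⊔ U' = ⊤
  inv : ∀ g : G, ∀ w ∈ U, ρ g w ∈ U
  triv : ∀ g : G, ∀ w ∈ U', ρ g w = w
  faith : ∀ g : G, (∀ x : X, ρ g (v x) = v x) → g = 1
  faithU : ∀ g : G, (∀ w ∈ U, ρ g w = w) → g = 1
  irr : ∀ N : Submodule (ZMod 3) E, N ≤ U → (∀ g : G, ∀ w ∈ N, ρ g w ∈ N) → N = ⊥ ∨ N = U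
  hq : FG b t
  tR : t ∈ R
  tx : ∀ x : X, t • x = x
  tx' : ∀ x : X, cj b t • x = x
  b3 : b • b • b • x₁ = x₁
  b1 : b • x₁ ≠ x₁
  bx : ∀ x : X, x ≠ x₁ → x ≠ b • x₁ → x ≠ b • b • x₁ → b • x = x
  s1 : s t x₁ = 1
  s2 : s t (b • x₁) = -1
  s3 : s t (b • b • x₁) = -1

section

variable {G : Type u} [Group G] {E : Type w} [AddCommGroup E] [Module (ZMod 3) E] [Finite E]
variable {ρ : Representation (ZMod 3) G E} {R : Subgroup G} {b : G}

theorem CS.exists_md [Finite G] (h : CS ρ R b) (A : Subgroup G) (hAn : A.Normal)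
    (hAR : A ≤ R) (hnc : NC b A) (hA2 : ∀ x ∈ A, x * x = 1) : Nonempty (MD ρ R b) := by
  classical
  have hb := h.b3
  have hfin : Module.Finite (ZMod 3) E := Module.Finite.of_finite
  have hcomm : ∀ x ∈ A, ∀ y ∈ A, x * y = y * x := by
    intro x hx y hy
    have e := hA2 _ (A.mul_mem hx hy)
    calc x * y = x * (x * y * (x * y)) * y := by rw [e, mul_one]
      _ = (x * x) * (y * x) * (y * y) := by group
      _ = y * x := by rw [hA2 x hx, hA2 y hy, one_mul, mul_one]
  have hA : (Nat.card A : ZMod 3) ≠ 0 := by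
    intro h0
    rw [ZMod.natCast_eq_zero_iff] at h0
    exact h.r3 (h0.trans (Subgroup.card_dvd_of_le hAR))
  -- the four-group
  obtain ⟨n, hn, hnne⟩ := hnc
  have hcn : cj b n ∈ A := hAn.conj_mem n hn b
  obtain ⟨t, ht⟩ : ∃ t, t = n⁻¹ * cj b n := ⟨_, rfl⟩
  have htA : t ∈ A := by rw [ht]; exact A.mul_mem (A.inv_mem hn) hcn
  have hq : FG b t := by
    refine ⟨?_, hA2 t htA, ?_⟩
    · intro h1
      apply hnne
      rw [ht, inv_mul_eq_one] at h1
      rw [mul_eq_cj, ← h1]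
    · rw [ht]; exact prod_y hb
  have ht1A : cj b t ∈ A := hAn.conj_mem t htA b
  obtain ⟨e, he, he0⟩ := h.exists_line hq
  -- the first weight
  have hχ : ∀ a : A, ∃ c : ZMod 3, ρ a e = c • e := by
    intro a
    rcases h.scalar hq he he0 (hcomm a a.2 t htA) (hcomm a a.2 _ ht1A) with h1 | h1
    · exact ⟨1, by rw [h1, one_smul]⟩
    · exact ⟨-1, by rw [h1, neg_smul, one_smul]⟩
  choose χ hχ' using hχ
  have heχ : e ∈ wt ρ A χ := mem_wt.mpr hχ'
  have hl1 : wt ρ A χ ≤ l1 ρ b t := by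
    intro v hv
    rw [mem_wt] at hv
    have c1 : χ ⟨t, htA⟩ = 1 := by
      have h1 := hχ' ⟨t, htA⟩
      have h2 : ρ t e = e := he.1
      have h3 : (χ ⟨t, htA⟩ - 1) • e = 0 := by
        rw [sub_smul, ← h1, one_smul]
        exact sub_eq_zero.mpr h2
      exact sub_eq_zero.mp ((smul_eq_zero.mp h3).resolve_right he0)
    have c2 : χ ⟨cj b t, ht1A⟩ = -1 := by
      have h1 := hχ' ⟨cj b t, ht1A⟩
      have h2 : ρ (cj b t) e = -e := he.2
      have h3 : (χ ⟨cj b t, ht1A⟩ + 1) • e = 0 := by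
        rw [add_smul, ← h1, one_smul]
        show ρ (cj b t) e + e = 0
        rw [h2, neg_add_cancel]
      exact eq_neg_of_add_eq_zero_left ((smul_eq_zero.mp h3).resolve_right he0)
    constructor
    · have h1 := hv ⟨t, htA⟩
      rw [c1, one_smul] at h1
      exact h1
    · have h1 := hv ⟨cj b t, ht1A⟩
      rw [c2, neg_smul, one_smul] at h1
      exact h1
  let X := MulAction.orbit G χ
  have hwt : ∀ x : X, ∃ v ∈ wt ρ A x.1, v ≠ 0 ∧ ∀ w ∈ wt ρ A x.1, ∃ c : ZMod 3, w = c • v := by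
    rintro ⟨_, g, rfl⟩
    refine ⟨ρ g e, smul_mem_wt heχ g, ?_, ?_⟩
    · intro h0
      apply he0
      have := ρ.inv_self_apply g e
      rw [h0, map_zero] at this
      exact this.symm
    · intro w hw
      have h1 := smul_mem_wt hw g⁻¹
      have h2 : g⁻¹ • (fun m => m • χ) g = χ := inv_smul_smul g χ
      rw [h2] at h1
      obtain ⟨c, hc⟩ := h.line hq he he0 (hl1 h1)
      refine ⟨c, ?_⟩
      have h3 := ρ.self_inv_apply g w
      rw [hc, map_smul] at h3
      exact h3.symm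
  choose v hvw hv0 hvl using hwt
  have hs : ∀ (g : G) (x : X), ∃ c : ZMod 3, ρ g (v x) = c • v (g • x) := by
    intro g x
    exact hvl (g • x) _ (smul_mem_wt (hvw x) g)
  choose s hs using hs
  -- the subspaces
  have hind := indep_wt ρ A hA hcomm
  let O : Set (A → ZMod 3) := MulAction.orbit G χ
  have hOinv : ∀ (g : G), ∀ ψ ∈ O, g • ψ ∈ O := by
    intro g ψ hψ
    exact MulAction.mem_orbit_of_mem_orbit g hψ
  have hOcinv : ∀ (g : G), ∀ ψ ∈ Oᶜ, g • ψ ∈ Oᶜ := by
    intro g ψ hψ hgψ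
    apply hψ
    have := hOinv g⁻¹ _ hgψ
    rwa [inv_smul_smul] at this
  let U := us ρ A O
  let U' := us ρ A Oᶜ
  have hinf : U ⊓ U' = ⊥ := by
    rw [← disjoint_iff]
    exact hind.disjoint_biSup_biSup disjoint_compl_right
  have hsup : U ⊔ U' = ⊤ := by
    rw [eq_top_iff, ← iSup_two ρ A hA hcomm hA2, iSup_le_iff]
    intro ψ
    by_cases hψ : ψ ∈ O
    · exact le_sup_of_le_left (le_iSup₂_of_le (f := fun (ψ' : A → ZMod 3) (_ : ψ' ∈ O) => wt ρ A ψ')
        ψ hψ le_rfl)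
    · exact le_sup_of_le_right (le_iSup₂_of_le (f := fun (ψ' : A → ZMod 3) (_ : ψ' ∈ Oᶜ) => wt ρ A ψ')
        ψ hψ le_rfl)
  have hwU : ∀ ψ ∈ O, wt ρ A ψ ≤ U := fun ψ hψ =>
    le_iSup₂_of_le (f := fun (ψ' : A → ZMod 3) (_ : ψ' ∈ O) => wt ρ A ψ') ψ hψ le_rfl
  have hU : ∀ g, ∀ w ∈ U, ρ g w ∈ U := fun g w hw => smul_mem_us g (hOinv g) hw
  have hU' : ∀ g, ∀ w ∈ U', ρ g w ∈ U' := fun g w hw => smul_mem_us g (hOcinv g) hw
  have heU : e ∈ U := hwU χ (MulAction.mem_orbit_self χ) heχ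
  have hddU : dd ρ b ≤ U := by
    intro w hw
    obtain ⟨c, d, f, rfl⟩ := h.dd_line hq he he0 w hw
    exact Submodule.add_mem _ (Submodule.add_mem _ (Submodule.smul_mem _ _ heU)
      (Submodule.smul_mem _ _ (hU b _ heU))) (Submodule.smul_mem _ _ (hU b _ (hU b _ heU)))
  have htriv : ∀ g, ∀ w ∈ U', ρ g w = w := by
    apply h.trivial_on U' hU'
    intro w hw
    have h1 : ρ b w - w ∈ U ⊓ U' := ⟨hddU (sub_mem_dd ρ b w), Submodule.sub_mem _ (hU' b w hw) hw⟩
    rw [hinf, Submodule.mem_bot] at h1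
    exact sub_eq_zero.mp h1
  have hfaithU : ∀ g, (∀ w ∈ U, ρ g w = w) → g = 1 := by
    intro g hg
    apply h.faith
    intro w
    have hw : w ∈ U ⊔ U' := by rw [hsup]; trivial
    obtain ⟨w₁, hw₁, w₂, hw₂, rfl⟩ := Submodule.mem_sup.mp hw
    rw [map_add, hg w₁ hw₁, htriv g w₂ hw₂]
  have hspan : ∀ N : Submodule (ZMod 3) E, (∀ x : X, v x ∈ N) → U ≤ N := by
    intro N hN
    refine iSup₂_le ?_
    intro ψ hψ w hw
    obtain ⟨c, rfl⟩ := hvl ⟨ψ, hψ⟩ w hw
    exact N.smul_mem _ (hN _)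
  have hfaith : ∀ g, (∀ x, ρ g (v x) = v x) → g = 1 := by
    intro g hg
    apply hfaithU
    intro w hw
    exact hspan (fxs ρ g) hg hw
  -- irreducible
  have hirr : ∀ N : Submodule (ZMod 3) E, N ≤ U → (∀ g, ∀ w ∈ N, ρ g w ∈ N) → N = ⊥ ∨ N = U := by
    intro N hNU hN
    by_cases hbot : N = ⊥
    · exact Or.inl hbot
    right
    apply le_antisymm hNU
    let ρN : Representation (ZMod 3) G N :=
      { toFun := fun g => (ρ g).restrict (fun w hw => hN g w hw)
        map_one' := by ext w; exact rho_one ρ w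
        map_mul' := by intro g k; ext w; exact rho_mul ρ g k w }
    have hfinN : Module.Finite (ZMod 3) N := Module.Finite.of_finite
    have hex : ∃ ψ : A → ZMod 3, wt ρN A ψ ≠ ⊥ := by
      by_contra hcon
      push Not at hcon
      have h1 := iSup_two ρN A hA hcomm hA2
      rw [iSup_congr hcon, iSup_bot] at h1
      apply hbot
      rw [eq_bot_iff]
      intro w hw
      have h2 : (⟨w, hw⟩ : N) ∈ (⊥ : Submodule (ZMod 3) N) := by rw [h1]; trivial
      rw [Submodule.mem_bot] at h2 ⊢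
      exact congrArg Subtype.val h2
    obtain ⟨ψ, hψ⟩ := hex
    obtain ⟨w, hw, hw0⟩ := Submodule.exists_mem_ne_zero_of_ne_bot hψ
    rw [mem_wt] at hw
    have hw' : (w : E) ∈ wt ρ A ψ := by
      rw [mem_wt]
      intro a
      exact congrArg Subtype.val (hw a)
    have hwne : (w : E) ≠ 0 := fun h0 => hw0 (Subtype.ext h0)
    have hψO : ψ ∈ O := by
      by_contra hψO
      have h1 : (w : E) ∈ U ⊓ U' := ⟨hNU w.2,
        le_iSup₂_of_le (f := fun (ψ' : A → ZMod 3) (_ : ψ' ∈ Oᶜ) => wt ρ A ψ') ψ hψO le_rfl hw'⟩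
      rw [hinf, Submodule.mem_bot] at h1
      exact hwne h1
    obtain ⟨c, hc⟩ := hvl ⟨ψ, hψO⟩ _ hw'
    have hvψ : v ⟨ψ, hψO⟩ ∈ N := by
      have h1 : (w : E) ∈ N := w.2
      rcases zmod3_cases c with rfl | rfl | rfl
      · rw [zero_smul] at hc
        exact absurd hc hwne
      · rw [one_smul] at hc
        rwa [hc] at h1
      · rw [neg_smul, one_smul] at hc
        rw [hc] at h1
        have := N.neg_mem h1
        rwa [neg_neg] at this
    apply hspan
    intro x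
    obtain ⟨g, hg⟩ := MulAction.exists_smul_eq G (⟨ψ, hψO⟩ : X) x
    have h1 := hN g _ hvψ
    rw [hs, hg] at h1
    have h2 : s g ⟨ψ, hψO⟩ ≠ 0 := by
      intro h0
      have h3 := hs g ⟨ψ, hψO⟩
      rw [h0, zero_smul] at h3
      have := ρ.inv_self_apply g (v ⟨ψ, hψO⟩)
      rw [h3, map_zero] at this
      exact hv0 _ this.symm
    exact (N.smul_mem_iff h2).mp h1
  -- the action of `A` is trivial
  have hAtriv : ∀ a ∈ A, ∀ x : X, a • x = x := by
    intro a ha x
    apply Subtype.ext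
    show a • x.1 = x.1
    funext k
    rw [wt_smul_def]
    have h1 : MulAut.conjNormal a⁻¹ k = k := by
      apply Subtype.ext
      rw [MulAut.conjNormal_apply, inv_inv]
      rw [mul_assoc, hcomm _ k.2 _ ha, ← mul_assoc, inv_mul_cancel, one_mul]
    rw [h1]
  -- signs of `t`
  have hvals : ∀ (a : G) (ha : a ∈ A) (x : X), s a x = x.1 ⟨a, ha⟩ := by
    intro a ha x
    have h1 := hs a x
    rw [hAtriv a ha] at h1
    have h2 := mem_wt.mp (hvw x) ⟨a, ha⟩
    have h3 : (s a x - x.1 ⟨a, ha⟩) • v x = 0 := by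
      rw [sub_smul, ← h1]
      exact sub_eq_zero.mpr h2
    exact sub_eq_zero.mp ((smul_eq_zero.mp h3).resolve_right (hv0 x))
  let x₁ : X := ⟨χ, MulAction.mem_orbit_self χ⟩
  have hval : ∀ (x : X) (w : E) (c : ZMod 3), w ≠ 0 → w ∈ wt ρ A x.1 → ρ t w = c • w → s t x = c := by
    intro x w c hw0 hw hc
    rw [hvals t htA x]
    have h2 := mem_wt.mp hw ⟨t, htA⟩
    have h2' : ρ t w = x.1 ⟨t, htA⟩ • w := h2
    have h3 : (x.1 ⟨t, htA⟩ - c) • w = 0 := by
      rw [sub_smul, ← hc, ← h2', sub_self]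
    exact sub_eq_zero.mp ((smul_eq_zero.mp h3).resolve_right hw0)
  have hinj : ∀ w : E, w ≠ 0 → ρ b w ≠ 0 := by
    intro w hw h0
    apply hw
    have := ρ.inv_self_apply b w
    rw [h0, map_zero] at this
    exact this.symm
  have hs1 : s t x₁ = 1 := hval x₁ e 1 he0 heχ (by rw [one_smul]; exact (hq.vals hb he).1)
  have hs2 : s t (b • x₁) = -1 := hval (b • x₁) (ρ b e) (-1) (hinj e he0) (smul_mem_wt heχ b)
    (by rw [neg_smul, one_smul]; exact (hq.vals2 hb he).1)
  have hs3 : s t (b • b • x₁) = -1 := hval (b • b • x₁) (ρ b (ρ b e)) (-1) (hinj _ (hinj e he0))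
    (smul_mem_wt (smul_mem_wt heχ b) b) (by rw [neg_smul, one_smul]; exact (hq.vals3 hb he).1)
  have hbx : ∀ x : X, x ≠ x₁ → x ≠ b • x₁ → x ≠ b • b • x₁ → b • x = x := by
    intro x h1 h2 h3
    by_contra hcon
    apply hv0 x
    have hdis := hind x.1
    have hcw : ∀ ψ : A → ZMod 3, ψ ≠ x.1 → wt ρ A ψ ≤ cw ρ A x.1 := by
      intro ψ hψ
      exact le_iSup₂_of_le (f := fun (ψ' : A → ZMod 3) (_ : ψ' ≠ x.1) => wt ρ A ψ') ψ hψ le_rfl
    have hdis' : wt ρ A x.1 ⊓ cw ρ A x.1 = ⊥ := by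
      rw [← disjoint_iff]; exact hdis
    have h4 : v x ∈ cw ρ A x.1 := by
      obtain ⟨c, d, f, hcdf⟩ := h.dd_line hq he he0 _ (sub_mem_dd ρ b (v x))
      have h5 : v x = ρ b (v x) - (c • e + d • ρ b e + f • ρ b (ρ b e)) := by
        rw [← hcdf]; abel
      rw [h5]
      apply Submodule.sub_mem
      · exact hcw _ (fun h6 => hcon (Subtype.ext h6)) (smul_mem_wt (hvw x) b)
      · apply Submodule.add_mem
        · apply Submodule.add_mem
          · exact Submodule.smul_mem _ _ (hcw χ (fun h6 => h1 (Subtype.ext h6.symm)) heχ)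
          · exact Submodule.smul_mem _ _ (hcw (b • χ) (fun h6 => h2 (Subtype.ext h6.symm))
              (smul_mem_wt heχ b))
        · exact Submodule.smul_mem _ _ (hcw (b • b • χ) (fun h6 => h3 (Subtype.ext h6.symm))
            (smul_mem_wt (smul_mem_wt heχ b) b))
    have h5 : v x ∈ wt ρ A x.1 ⊓ cw ρ A x.1 := ⟨hvw x, h4⟩
    rw [hdis', Submodule.mem_bot] at h5
    exact h5
  exact ⟨{
    X := X
    v := v
    s := s
    U := U
    U' := U'
    t := t
    x₁ := x₁
    hv := hs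
    ne := hv0
    inf := hinf
    sup := hsup
    inv := hU
    triv := htriv
    faith := hfaith
    faithU := hfaithU
    irr := hirr
    hq := hq
    tR := hAR htA
    tx := hAtriv t htA
    tx' := hAtriv _ ht1A
    b3 := by rw [← mul_smul, ← mul_smul, hb, one_smul]
    b1 := by
      intro h1
      rw [h1, hs1] at hs2
      exact absurd hs2 (by decide)
    bx := hbx
    s1 := hs1
    s2 := hs2
    s3 := hs3 }⟩

end

end Cfsg.Agent.H587.Cubic
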