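import Mathlib
import Cfsg.Prelude.Def_Solvable
import Cfsg.Agent.H587.CubicM
import Cfsg.Agent.Lib.HallHigman
import Cfsg.Agent.Lib.CoprimeCommutator

/-!
# S4415, part N: the reduction to `[O_{3'}(S), B] B`
-/

set_option autoImplicit false
set_option linter.unusedSectionVars false
set_option linter.unusedVariables false

namespace Cfsg.Agent.H587.Cubic

open Module
open scoped commutatorElement

universe u w

theorem three_smul_zero {E : Type*} [AddCommGroup E] [Module (ZMod 3) E] (v : E) : v + v + v = 0 := by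
  have h7 : (3 : ZMod 3) • v = 0 := by
    have : (3 : ZMod 3) = 0 := rfl
    rw [this, zero_smul]
  have h8 : (3 : ZMod 3) • v = v + v + v := by
    have : (3 : ZMod 3) = 1 + 1 + 1 := rfl
    rw [this, add_smul, add_smul, one_smul]
  rw [← h8, h7]

/-- The commutator space of a single Jordan block of size three. -/
theorem dim_two {S : Type u} [Group S] {E : Type w} [AddCommGroup E] [Module (ZMod 3) E] [Finite E]
    (ρ : Representation (ZMod 3) S E) (b : S) (hb : b * b * b = 1) (E₀ E₁ : Submodule (ZMod 3) E)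
    (hE01' : E₀ ⊔ E₁ = ⊤) (hE1 : ∀ v ∈ E₁, ρ b v = v) (hE0inv : ∀ v ∈ E₀, ρ b v ∈ E₀)
    (hE0 : Nat.card E₀ = 27) (hind : ∃ v ∈ E₀, ρ b (ρ b v - v) - (ρ b v - v) ≠ 0) :
    finrank (ZMod 3) (dd ρ b) = 2 := by
  have hfin : Module.Finite (ZMod 3) E := Module.Finite.of_finite
  have hE0d : finrank (ZMod 3) E₀ = 3 := by
    have h1 := Module.natCard_eq_pow_finrank (K := ZMod 3) (V := E₀)
    rw [hE0, Nat.card_zmod] at h1
    have h2 : 3 ^ 3 = 3 ^ finrank (ZMod 3) E₀ := by rw [← h1]; norm_num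
    exact (Nat.pow_right_injective (le_refl 2 |>.trans (by norm_num)) h2).symm
  obtain ⟨v, hv, hne⟩ := hind
  have hcube : ∀ u : E, ρ b (ρ b (ρ b u - u) - (ρ b u - u)) - (ρ b (ρ b u - u) - (ρ b u - u)) = 0 := by
    intro u
    have h1 : ρ b (ρ b (ρ b u)) = u := by rw [← rho_mul, ← rho_mul, hb, rho_one]
    simp only [map_sub, h1]
    have h2 := three_smul_zero (ρ b u)
    have h3 := three_smul_zero (ρ b (ρ b u))
    calc u - ρ b (ρ b u) - (ρ b (ρ b u) - ρ b u) - (ρ b (ρ b u) - ρ b u - (ρ b u - u))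
        = (ρ b u + ρ b u + ρ b u) - (ρ b (ρ b u) + ρ b (ρ b u) + ρ b (ρ b u)) := by abel
      _ = 0 := by rw [h2, h3, sub_zero]
  let f : E →ₗ[ZMod 3] E := ρ b - 1
  have hf : ∀ u, f u = ρ b u - u := fun u => rfl
  apply le_antisymm
  · -- upper bound
    have h1 : dd ρ b ≤ LinearMap.range (f.domRestrict E₀) := by
      intro x hx
      obtain ⟨u, rfl⟩ := mem_dd.mp hx
      have hu : u ∈ E₀ ⊔ E₁ := by rw [hE01']; trivial
      obtain ⟨u₀, hu₀, u₁, hu₁, rfl⟩ := Submodule.mem_sup.mp hu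
      refine ⟨⟨u₀, hu₀⟩, ?_⟩
      show ρ b u₀ - u₀ = ρ b (u₀ + u₁) - (u₀ + u₁)
      rw [map_add, hE1 u₁ hu₁]; abel
    have h2 := LinearMap.finrank_range_add_finrank_ker (f.domRestrict E₀)
    have h3 : 0 < finrank (ZMod 3) (LinearMap.ker (f.domRestrict E₀)) := by
      rw [Module.finrank_pos_iff]
      have hmem : ρ b (ρ b v - v) - (ρ b v - v) ∈ E₀ :=
        E₀.sub_mem (hE0inv _ (E₀.sub_mem (hE0inv v hv) hv)) (E₀.sub_mem (hE0inv v hv) hv)
      refine ⟨⟨⟨⟨_, hmem⟩, ?_⟩, 0, ?_⟩⟩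
      · rw [LinearMap.mem_ker]
        exact hcube v
      · intro h0
        apply hne
        exact congrArg (fun x => ((x : LinearMap.ker (f.domRestrict E₀)) : E₀).1) h0
    rw [hE0d] at h2
    have h4 := Submodule.finrank_mono h1
    omega
  · -- lower bound
    have hli : LinearIndependent (ZMod 3) (![⟨ρ b v - v, sub_mem_dd ρ b v⟩,
        ⟨ρ b (ρ b v - v) - (ρ b v - v), sub_mem_dd ρ b _⟩] : Fin 2 → dd ρ b) := by
      rw [LinearIndependent.pair_iff]
      intro s t hst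
      have h1 : s • (ρ b v - v) + t • (ρ b (ρ b v - v) - (ρ b v - v)) = 0 := congrArg Subtype.val hst
      have h2 : s • (ρ b (ρ b v - v) - (ρ b v - v)) = 0 := by
        have h3 := congrArg f h1
        rw [map_add, map_smul, map_smul, map_zero, hf, hf, hcube, smul_zero, add_zero] at h3
        exact h3
      have h3 : s = 0 := (smul_eq_zero.mp h2).resolve_right hne
      rw [h3, zero_smul, zero_add] at h1
      exact ⟨h3, (smul_eq_zero.mp h1).resolve_right hne⟩
    have := hli.fintype_card_le_finrank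
    rwa [Fintype.card_fin] at this

/-- The involution. -/
theorem exists_fg {S : Type u} [Group S] [Finite S] [Group.IsSolvable S] (B : Subgroup S)
    (hB : Nat.card B = 3) (b : S) (hb : Subgroup.zpowers b = B)
    (Q : Subgroup S) (hQ : Cfsg.IsElementaryAbelian 2 Q)
    (hBQ : B ≤ Subgroup.normalizer (Q : Set S)) (hBQ' : ¬ B ≤ Subgroup.centralizer (Q : Set S))
    (P : Sylow 3 S) (hBZ : (Subgroup.center ↥(P : Subgroup S)).map (P : Subgroup S).subtype = B) :
    ∃ t ∈ ⁅Cfsg.pPrimeCore 3 S, B⁆, FG b t := by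
  have f3 : Fact (Nat.Prime 3) := ⟨Nat.prime_three⟩
  have hbB : b ∈ B := by rw [← hb]; exact Subgroup.mem_zpowers b
  have hb3 : b * b * b = 1 := by
    have h1 : orderOf b = 3 := by rw [← Nat.card_zpowers, hb, hB]
    have h2 := pow_orderOf_eq_one b
    rw [h1, pow_succ, pow_two] at h2
    exact h2
  have hQ2 : ∀ x ∈ Q, x * x = 1 := by
    intro x hx
    rw [← pow_two]; exact hQ.2 x hx
  -- the element
  obtain ⟨n, hn, hnne⟩ : ∃ n ∈ Q, b * n ≠ n * b := by
    by_contra hcon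
    push Not at hcon
    apply hBQ'
    rw [← hb, Subgroup.zpowers_le, Subgroup.mem_centralizer_iff]
    intro x hx
    exact (hcon x hx).symm
  have hbQ : ∀ x ∈ Q, cj b x ∈ Q := fun x hx => ((Subgroup.mem_normalizer_iff.mp (hBQ hbB)) x).mp hx
  obtain ⟨t, ht⟩ : ∃ t, t = n⁻¹ * cj b n := ⟨_, rfl⟩
  have htQ : t ∈ Q := by rw [ht]; exact Q.mul_mem (Q.inv_mem hn) (hbQ n hn)
  have hq : FG b t := by
    refine ⟨?_, hQ2 t htQ, ?_⟩
    · intro h1
      apply hnne
      rw [ht, inv_mul_eq_one] at h1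
      rw [mul_eq_cj, ← h1]
    · rw [ht]; exact prod_y hb3
  -- `t` is in the core
  have hKn : (Cfsg.pPrimeCore 3 S).Normal := Cfsg.Agent.Lib.HallHigman.pPrimeCore_normal 3
  have htK : t ∈ Cfsg.pPrimeCore 3 S := by
    let K := Cfsg.pPrimeCore 3 S
    let π := QuotientGroup.mk' K
    have hquo : Cfsg.pPrimeCore 3 (S ⧸ K) = ⊥ :=
      Cfsg.Agent.Lib.HallHigman.pPrimeCore_quotient_eq_bot 3 K rfl
    have hHH := Cfsg.Agent.Lib.HallHigman.centralizer_pCore_le_of_solvable (G := S ⧸ K) 3 hquo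
    have hOn : (Cfsg.pCore 3 (S ⧸ K)).Normal := Cfsg.Agent.Lib.HallHigman.pCore_normal 3
    have hbO : π b ∈ Cfsg.pCore 3 (S ⧸ K) := by
      apply hHH
      rw [Subgroup.mem_centralizer_iff]
      intro o ho
      have h1 := Cfsg.Agent.Lib.HallHigman.pCore_le_sylow 3
        (P.mapSurjective (QuotientGroup.mk'_surjective K)) ho
      have h2 : o ∈ (P : Subgroup S).map (QuotientGroup.mk' K) := h1
      obtain ⟨p, hp, rfl⟩ := h2
      have hbZ : b ∈ (Subgroup.center ↥(P : Subgroup S)).map (P : Subgroup S).subtype := by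
        rw [hBZ]; exact hbB
      obtain ⟨c, hc, hcb⟩ := hbZ
      have h3 := Subgroup.mem_center_iff.mp hc ⟨p, hp⟩
      have h4 : p * b = b * p := by
        rw [← hcb]; exact congrArg Subtype.val h3
      show π p * π b = π b * π p
      rw [← map_mul, h4, map_mul]
    have htO : π t ∈ Cfsg.pCore 3 (S ⧸ K) := by
      have h1 : π t = ((π n)⁻¹ * π b * π n) * (π b)⁻¹ := by
        rw [ht]; unfold cj
        rw [map_mul, map_mul, map_mul, map_inv, map_inv]; group
      rw [h1]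
      apply Subgroup.mul_mem _ _ (Subgroup.inv_mem _ hbO)
      have := hOn.conj_mem _ hbO (π n)⁻¹
      rwa [inv_inv] at this
    obtain ⟨k, hk⟩ := (Cfsg.Agent.Lib.HallHigman.pCore_isPGroup (G := S ⧸ K) 3) ⟨π t, htO⟩
    have h2 : (π t) ^ (3 ^ k) = 1 := congrArg Subtype.val hk
    have h3 : (π t) ^ 2 = 1 := by rw [← map_pow, pow_two, hq.sq, map_one]
    have h4 : orderOf (π t) = 1 := by
      apply Nat.eq_one_of_dvd_coprimes (a := 3 ^ k) (b := 2)
      · apply Nat.Coprime.pow_left; decide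
      · exact orderOf_dvd_of_pow_eq_one h2
      · exact orderOf_dvd_of_pow_eq_one h3
    rw [orderOf_eq_one_iff] at h4
    exact (QuotientGroup.eq_one_iff t).mp h4
  refine ⟨cj b (cj b t), ?_, (hq.next hb3).next hb3⟩
  have h1 : ⁅t, b⁆ ∈ ⁅Cfsg.pPrimeCore 3 S, B⁆ := Subgroup.commutator_mem_commutator htK hbB
  have h2 : ⁅t, b⁆ = cj b (cj b t) := by
    rw [commutatorElement_def, ← hq.mul_eq hb3]
    have : b * t⁻¹ * b⁻¹ = cj b t := by rw [hq.inv_eq]; rfl
    rw [← this]; group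
  rwa [h2] at h1

end Cfsg.Agent.H587.Cubic
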