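import Mathlib
import Cfsg.Agent.OddOrderLocal.Thm34
import Cfsg.Agent.H587.OrbitWeights

/-!
# Fixed points under base change
-/

set_option autoImplicit false

namespace Cfsg.Agent.H587.OrbitBC

open Module TensorProduct Cfsg.Agent.OddOrderLocal.Thm34 Cfsg.Agent.H587.OrbitWeights
open Cfsg.Agent.OddOrderLocal.Thm34Weights
open scoped commutatorElement

attribute [local instance] wtAction

variable {F : Type*} [Field F] {F' : Type*} [Field F'] [Algebra F F'] {G : Type*} [Group G]
    {V : Type*} [AddCommGroup V] [Module F V]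

theorem fix_bc_le (ρ : Representation F G V) (T : Subgroup G) :
    fix (bc F' ρ) T ≤ Submodule.span F' ((fun v : V => (1 : F') ⊗ₜ[F] v) '' (fix ρ T : Set V)) := by
  intro w hw
  let b := Module.Free.chooseBasis F F'
  obtain ⟨c, rfl⟩ := TensorProduct.eq_repr_basis_left b w
  have hc : ∀ i, c i ∈ fix ρ T := by
    intro i t ht
    have h1 := hw t ht
    have h2 : bc F' ρ t (c.sum fun i n => b i ⊗ₜ[F] n) =
        (c.mapRange (ρ t) (map_zero _)).sum fun i n => b i ⊗ₜ[F] n := by
      rw [Finsupp.sum_mapRange_index (by intro i; rw [TensorProduct.tmul_zero]), map_finsuppSum]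
      rfl
    rw [h2, ← sub_eq_zero, ← Finsupp.sum_sub_index (by intro i a b; rw [TensorProduct.tmul_sub])] at h1
    have h3 := TensorProduct.sum_tmul_basis_left_eq_zero b _ h1
    have h4 := DFunLike.congr_fun h3 i
    rw [Finsupp.sub_apply, Finsupp.mapRange_apply, Finsupp.zero_apply, sub_eq_zero] at h4
    exact h4
  unfold Finsupp.sum
  apply Submodule.sum_mem
  intro i _
  have h5 : b i ⊗ₜ[F] c i = b i • ((1 : F') ⊗ₜ[F] c i) := by
    rw [TensorProduct.smul_tmul', smul_eq_mul, mul_one]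
  show b i ⊗ₜ[F] c i ∈ _
  rw [h5]
  apply Submodule.smul_mem
  apply Submodule.subset_span
  exact ⟨c i, hc i, rfl⟩

theorem finrank_fix_bc [FiniteDimensional F V] (ρ : Representation F G V) (T : Subgroup G) :
    finrank F' (fix (bc F' ρ) T) ≤ finrank F (fix ρ T) := by
  let b := Module.finBasis F (fix ρ T)
  have h1 : fix (bc F' ρ) T ≤ Submodule.span F' (Set.range fun i => (1 : F') ⊗ₜ[F] (b i : V)) := by
    refine (fix_bc_le ρ T).trans ?_
    rw [Submodule.span_le]
    rintro _ ⟨v, hv, rfl⟩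
    show (1 : F') ⊗ₜ[F] v ∈ _
    have h2 : v = ∑ i, (b.repr ⟨v, hv⟩ i) • (b i : V) := by
      have h3 := congrArg Subtype.val (b.sum_repr ⟨v, hv⟩)
      rw [AddSubmonoidClass.coe_finsetSum] at h3
      exact h3.symm
    rw [h2, TensorProduct.tmul_sum]
    apply Submodule.sum_mem
    intro i _
    rw [TensorProduct.tmul_smul, ← algebraMap_smul F' (b.repr ⟨v, hv⟩ i)]
    apply Submodule.smul_mem
    exact Submodule.subset_span ⟨i, rfl⟩
  refine (Submodule.finrank_mono h1).trans ?_
  refine (finrank_range_le_card _).trans ?_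
  rw [Fintype.card_fin]

/-- The main statement on fixed points. -/
theorem main [Finite G] [Finite F] [FiniteDimensional F V] [Nontrivial V] {ℓ : ℕ} [hℓ : Fact ℓ.Prime] [CharP F ℓ]
    (ρ : Representation F G V) (A : Subgroup G) [A.Normal] (hA : (Nat.card A : F) ≠ 0)
    (hcomm : ∀ a ∈ A, ∀ b ∈ A, a * b = b * a) (T : Subgroup G) (hT : IsPGroup ℓ T)
    (Q : Subgroup G) {q : ℕ} [hq : Fact q.Prime] (hqℓ : q ≠ ℓ) (hQ : Nat.card Q = q)
    (hAQ : ⁅A, Q⁆ = A) (hfixA : fix ρ A = ⊥) :
    2 ≤ finrank F (fix ρ T) ∧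
      ((∀ x ∈ Q, ∀ v ∈ fix ρ T, ρ x v ∈ fix ρ T) → q ≤ finrank F (fix ρ T)) := by
  let K := AlgebraicClosure F
  have hchar : CharP K ℓ := charP_of_injective_algebraMap (algebraMap F K).injective ℓ
  have hAK : (Nat.card A : K) ≠ 0 := by
    intro h
    apply hA
    have h1 : algebraMap F K (Nat.card A : F) = 0 := by rw [map_natCast, h]
    exact (map_eq_zero _).1 h1
  have hne : Nontrivial (K ⊗[F] V) := inferInstance
  obtain ⟨x, hx⟩ : ∃ x : Q, orderOf x = q := exists_prime_orderOf_dvd_card' q (by rw [hQ])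
  have hx' : orderOf (x : G) = q := by rw [Subgroup.orderOf_coe, hx]
  have hzx : Subgroup.zpowers (x : G) ≤ Q := by
    rw [Subgroup.zpowers_le]; exact x.2
  have hfree : ∀ y ∈ Subgroup.zpowers (x : G), y ≠ 1 → ∀ χ ∈ Om (bc K ρ) A, y • χ ≠ χ := by
    intro y hy hy1 χ hχ hyχ
    -- `Q` fixes `χ`
    have hyQ : y ∈ Q := hzx hy
    have h1 : ∀ z ∈ Q, z • χ = χ := by
      intro z hz
      have h2 : (⟨z, hz⟩ : Q) ∈ Subgroup.zpowers (⟨y, hyQ⟩ : Q) := by
        apply mem_zpowers_of_prime_card hQ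
        intro h
        exact hy1 (congrArg Subtype.val h)
      obtain ⟨n, hn⟩ := Subgroup.mem_zpowers_iff.mp h2
      have hn' : y ^ n = z := congrArg Subtype.val hn
      rw [← hn']
      have h3 : y ∈ MulAction.stabilizer G χ := hyχ
      exact (MulAction.stabilizer G χ).zpow_mem h3 n
    have hmul := wt_mul (ρ := bc K ρ) (K := A) hχ
    have hone := wt_one (ρ := bc K ρ) (K := A) hχ
    -- the kernel of `χ`
    let B : Subgroup G :=
      { carrier := {g | ∃ h : g ∈ A, χ ⟨g, h⟩ = 1}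
        one_mem' := ⟨A.one_mem, hone⟩
        mul_mem' := by
          rintro a b ⟨ha, ha'⟩ ⟨hb, hb'⟩
          refine ⟨A.mul_mem ha hb, ?_⟩
          have := hmul ⟨a, ha⟩ ⟨b, hb⟩
          rw [ha', hb', mul_one] at this
          exact this
        inv_mem' := by
          rintro a ⟨ha, ha'⟩
          refine ⟨A.inv_mem ha, ?_⟩
          have := hmul ⟨a, ha⟩ ⟨a, ha⟩⁻¹
          rw [ha', one_mul, mul_inv_cancel, hone] at this
          exact this.symm }
    have hB : A ≤ B := by
      conv_lhs => rw [← hAQ]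
      rw [Subgroup.commutator_le]
      intro a ha z hz
      have hnorm : ∀ g : G, ∀ c ∈ A, g * c * g⁻¹ ∈ A := fun g c hc =>
        (inferInstance : A.Normal).conj_mem c hc g
      have hmem : ⁅a, z⁆ ∈ A := by
        rw [commutatorElement_def, mul_assoc, mul_assoc, ← mul_assoc z]
        exact A.mul_mem ha (hnorm z _ (A.inv_mem ha))
      refine ⟨hmem, ?_⟩
      have h4 := congrFun (h1 z⁻¹ (Q.inv_mem hz)) (⟨a, ha⟩⁻¹ : A)
      rw [wt_smul_def, inv_inv] at h4
      have h5 : (⟨⁅a, z⁆, hmem⟩ : A) = ⟨a, ha⟩ * MulAut.conjNormal z (⟨a, ha⟩⁻¹ : A) := by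
        apply Subtype.ext
        rw [Subgroup.coe_mul, MulAut.conjNormal_apply, Subgroup.coe_inv]
        show ⁅a, z⁆ = a * (z * a⁻¹ * z⁻¹)
        rw [commutatorElement_def]
        simp only [mul_assoc]
      rw [h5, hmul, h4, ← hmul, mul_inv_cancel, hone]
    have h6 : ∀ a : A, χ a = 1 := by
      intro a
      obtain ⟨_, h7⟩ := hB a.2
      exact h7
    apply hχ
    rw [eq_bot_iff]
    intro w hw
    rw [mem_wt] at hw
    have hwf : w ∈ fix (bc K ρ) A := by
      intro a ha
      have := hw ⟨a, ha⟩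
      rw [h6, one_smul] at this
      exact this
    have h8 := fix_bc_le ρ A hwf
    rw [hfixA] at h8
    have h9 : ((fun v : V => (1 : K) ⊗ₜ[F] v) '' ((⊥ : Submodule F V) : Set V)) = {0} := by
      ext u
      constructor
      · rintro ⟨v, hv, rfl⟩
        have : v = 0 := hv
        rw [this]
        exact TensorProduct.tmul_zero _ _
      · intro hu
        refine ⟨0, rfl, ?_⟩
        have : u = 0 := hu
        rw [this]
        exact TensorProduct.tmul_zero _ _
    rw [h9, Submodule.span_zero_singleton] at h8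
    exact h8
  have h2 := two_le (ρ := bc K ρ) hAK hcomm T hT hqℓ (x := (x : G)) (by rw [← hx', pow_orderOf_eq_one])
    (hfree _ (Subgroup.mem_zpowers _) (by
      intro h
      rw [h, orderOf_one] at hx'
      exact hq.out.one_lt.ne hx'))
  refine ⟨h2.trans (finrank_fix_bc ρ T), ?_⟩
  intro hinv
  refine le_trans ?_ (finrank_fix_bc (F' := K) ρ T)
  apply q_le (ρ := bc K ρ) hAK hcomm T hT hqℓ hx' hfree
  intro w hw
  have h3 : fix (bc K ρ) T ≤ (fix (bc K ρ) T).comap (bc K ρ (x : G)) := by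
    refine (fix_bc_le ρ T).trans ?_
    rw [Submodule.span_le]
    rintro _ ⟨v, hv, rfl⟩
    show bc K ρ (x : G) ((1 : K) ⊗ₜ[F] v) ∈ fix (bc K ρ) T
    intro t ht
    rw [bc_tmul, bc_tmul, hinv x x.2 v hv t ht]
  exact h3 hw

end Cfsg.Agent.H587.OrbitBC
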